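import Mathlib
import Cfsg.Agent.Lib.SL2Mat
import Cfsg.Agent.ClassicalGeometry.PSL2Basic
import Cfsg.Agent.S0802

/-!
# `Z₃` and `SL₂(2ⁿ)`

The properties of these groups used for S3090.
-/

set_option autoImplicit false
set_option linter.unusedSectionVars false

namespace Cfsg.Agent.H282.PU

open Subgroup Cfsg.Agent.Lib.SL2Mat
open scoped Pointwise

/-- `X` is simple, centralisers of involutions are elementary abelian, and every proper subgroup over a
Sylow 2-subgroup normalises it. -/
structure Good (X : Type*) [Group X] : Prop where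
  simple : IsSimpleGroup X
  inv : ∀ a b : X, a * a = 1 → a ≠ 1 → a * b = b * a → b * b = 1
  max : ∀ (P : Sylow 2 X) (Y : Subgroup X), (P : Subgroup X) ≤ Y →
    ¬ Y ≤ normalizer ((P : Subgroup X) : Set X) → Y = ⊤
  dich : Nat.card X = 3 ∨ (2 ∣ Nat.card X ∧ ∃ a b : X, a * b ≠ b * a)

theorem Good.congr {X Y : Type*} [Group X] [Group Y] [Finite X] (e : X ≃* Y) (h : Good Y) : Good X where
  simple := (MulEquiv.isSimpleGroup_congr e).2 h.simple
  inv a b ha hne hab := by
    apply e.injective
    rw [map_mul, map_one]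
    apply h.inv (e a) (e b)
    · rw [← map_mul, ha, map_one]
    · exact fun h1 => hne (e.injective (by rw [h1, map_one]))
    · rw [← map_mul, hab, map_mul]
  max P Z hPZ hn := by
    have h1 := h.max (P.mapSurjective (f := e.toMonoidHom) e.surjective) (Z.map e.toMonoidHom)
      (Subgroup.map_mono hPZ) ?_
    · rw [eq_top_iff]
      intro x _
      have hx : e x ∈ Z.map e.toMonoidHom := by rw [h1]; trivial
      obtain ⟨z, hz, hzx⟩ := hx
      rwa [← e.injective hzx]
    · intro hle
      apply hn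
      intro z hz
      rw [mem_normalizer_iff]
      intro x
      have h2 := mem_normalizer_iff.1 (hle ⟨z, hz, rfl⟩) (e x)
      constructor
      · intro hx
        obtain ⟨y, hy, hyx⟩ := h2.1 ⟨x, hx, rfl⟩
        have : y = z * x * z⁻¹ := e.injective (by rw [map_mul, map_mul, map_inv]; exact hyx)
        rwa [← this]
      · intro hx
        obtain ⟨y, hy, hyx⟩ := h2.2 ⟨z * x * z⁻¹, hx, by
          show e (z * x * z⁻¹) = e z * e x * (e z)⁻¹
          rw [map_mul, map_mul, map_inv]⟩
        have : y = x := e.injective hyx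
        rwa [← this]
  dich := by
    rcases h.dich with h1 | ⟨h2, a, b, hab⟩
    · left; rw [Nat.card_congr e.toEquiv, h1]
    · right
      refine ⟨by rwa [Nat.card_congr e.toEquiv], e.symm a, e.symm b, fun h1 => hab ?_⟩
      have := congrArg e h1
      simpa using this

theorem good_three {X : Type*} [Group X] (h : Nat.card X = 3) : Good X := by
  have hf : Finite X := Nat.finite_of_card_ne_zero (by omega)
  have hp : Fact (Nat.Prime 3) := ⟨Nat.prime_three⟩
  have hc : ∀ a b : X, a * b = b * a := by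
    have := isCyclic_of_prime_card h
    intro a b
    exact (IsCyclic.commGroup (α := X)).mul_comm a b
  refine ⟨?_, ?_, ?_, Or.inl h⟩
  · have : Nontrivial X := Finite.one_lt_card_iff_nontrivial.1 (by omega)
    exact isSimpleGroup_of_prime_card h
  · intro a b ha hne _
    exfalso
    apply hne
    have h1 : a ^ 3 = 1 := by rw [← h]; exact pow_card_eq_one'
    have h2 : a ^ 3 = a * a * a := by rw [pow_succ, pow_two]
    rw [h2, ha, one_mul] at h1
    exact h1
  · intro P Y _ hn
    exfalso
    apply hn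
    intro y _
    rw [mem_normalizer_iff]
    intro x
    rw [hc y x, mul_inv_cancel_right]

section SL

variable {F : Type*} [Field F] [CharP F 2]

theorem two_zero : (2 : F) = 0 := by
  have := CharP.cast_eq_zero F 2
  exact_mod_cast this

theorem sl_inv (a b : Matrix.SpecialLinearGroup (Fin 2) F) (ha : a * a = 1) (hne : a ≠ 1)
    (hab : a * b = b * a) : b * b = 1 := by
  have e00 := congrArg (fun x => ent x 0 0) ha
  have e01 := congrArg (fun x => ent x 0 1) ha
  have e10 := congrArg (fun x => ent x 1 0) ha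
  have e11 := congrArg (fun x => ent x 1 1) ha
  have f00 := congrArg (fun x => ent x 0 0) hab
  have f01 := congrArg (fun x => ent x 0 1) hab
  have f10 := congrArg (fun x => ent x 1 0) hab
  have f11 := congrArg (fun x => ent x 1 1) hab
  simp only [ent_mul, ent_one_00, ent_one_01, ent_one_10, ent_one_11] at e00 e01 e10 e11 f00 f01 f10 f11
  have da := det_eq a
  have db := det_eq b
  have h2 : (2 : F) = 0 := two_zero
  set p := ent a 0 0
  set q := ent a 0 1
  set r := ent a 1 0
  set t := ent a 1 1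
  set x := ent b 0 0
  set y := ent b 0 1
  set z := ent b 1 0
  set w := ent b 1 1
  -- `p = t`
  have hpt : p = t := by
    by_contra hpt
    have hpt' : p + t ≠ 0 := by
      intro h
      apply hpt
      linear_combination h - t * h2
    have hq : q = 0 := by
      have : q * (p + t) = 0 := by linear_combination e01
      exact (mul_eq_zero.1 this).resolve_right hpt'
    have hr : r = 0 := by
      have : r * (p + t) = 0 := by linear_combination e10
      exact (mul_eq_zero.1 this).resolve_right hpt'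
    rw [hq, hr] at e00 e11
    have hp1 : (p + 1) * (p + 1) = 0 := by linear_combination e00 + (p + 1) * h2
    have ht1 : (t + 1) * (t + 1) = 0 := by linear_combination e11 + (t + 1) * h2
    have hp2 := mul_self_eq_zero.1 hp1
    have ht2 := mul_self_eq_zero.1 ht1
    apply hpt
    linear_combination hp2 - ht2
  have hqr : q ≠ 0 ∨ r ≠ 0 := by
    by_contra hcon
    push Not at hcon
    obtain ⟨hq, hr⟩ := hcon
    apply hne
    rw [hq, hr] at e00
    have hp1 : (p + 1) * (p + 1) = 0 := by linear_combination e00 + (p + 1) * h2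
    have hp2 := mul_self_eq_zero.1 hp1
    have hp3 : p = 1 := by linear_combination hp2 - h2
    refine ext_ent ?_ ?_ ?_ ?_
    · exact hp3
    · exact hq
    · exact hr
    · exact hpt.symm.trans hp3
  have hxw : x = w := by
    rcases hqr with h | h
    · have : q * (w - x) = 0 := by
        rw [← hpt] at f01
        linear_combination f01
      have := (mul_eq_zero.1 this).resolve_left h
      linear_combination -this
    · have : r * (x - w) = 0 := by
        rw [← hpt] at f10
        linear_combination f10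
      have := (mul_eq_zero.1 this).resolve_left h
      linear_combination this
  refine ext_ent ?_ ?_ ?_ ?_ <;>
    simp only [ent_mul, ent_one_00, ent_one_01, ent_one_10, ent_one_11]
  · show x * x + y * z = 1
    rw [← hxw] at db
    linear_combination db + y * z * h2
  · show x * y + y * w = 0
    rw [← hxw]
    linear_combination x * y * h2
  · show z * x + w * z = 0
    rw [← hxw]
    linear_combination x * z * h2
  · show z * y + w * w = 1
    rw [← hxw] at db ⊢
    linear_combination db + y * z * h2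

variable (F) in
/-- the upper unitriangular group -/
def U : Subgroup (Matrix.SpecialLinearGroup (Fin 2) F) where
  carrier := Set.range up
  one_mem' := ⟨0, up_zero⟩
  mul_mem' := by
    rintro _ _ ⟨b, rfl⟩ ⟨c, rfl⟩
    exact ⟨b + c, (up_mul b c).symm⟩
  inv_mem' := by
    rintro _ ⟨b, rfl⟩
    exact ⟨-b, (up_inv b).symm⟩

theorem mem_U {x : Matrix.SpecialLinearGroup (Fin 2) F} : x ∈ U F ↔ ∃ b, up b = x := Iff.rfl

theorem isPGroup_U : IsPGroup 2 (U F) := by
  rintro ⟨_, b, rfl⟩
  refine ⟨1, Subtype.ext ?_⟩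
  show (up b) ^ (2 ^ 1) = 1
  rw [pow_one, pow_two, up_mul]
  have h2 : (2 : F) = 0 := two_zero
  have : b + b = 0 := by linear_combination b * h2
  rw [this, up_zero]

theorem card_U : Nat.card (U F) = Nat.card F := by
  have : Function.Bijective (fun b : F => (⟨up b, b, rfl⟩ : U F)) := by
    constructor
    · intro b c h
      exact up_inj (congrArg Subtype.val h)
    · rintro ⟨_, b, rfl⟩
      exact ⟨b, rfl⟩
  exact (Nat.card_congr (Equiv.ofBijective _ this)).symm

theorem index_U [Finite F] : ¬ 2 ∣ (U F).index := by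
  classical
  have hf : Fintype F := Fintype.ofFinite F
  have h1 := (U F).card_mul_index
  rw [card_U, Cfsg.Agent.ClassicalGeometry.PSL2Basic.card_SL2, Nat.card_eq_fintype_card] at h1
  have h0 : 0 < Fintype.card F := Fintype.card_pos
  have h2 : (U F).index = Fintype.card F ^ 2 - 1 := Nat.eq_of_mul_eq_mul_left h0 h1
  obtain ⟨n, -, hn⟩ := FiniteField.card F 2
  have h3 : 2 ∣ Fintype.card F := by
    rw [hn]
    exact dvd_pow_self 2 n.2.ne'
  rw [h2]
  have h4 : 2 ∣ Fintype.card F ^ 2 := dvd_pow h3 two_ne_zero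
  have h5 : 1 ≤ Fintype.card F ^ 2 := Nat.one_le_pow _ _ h0
  omega

theorem U_max (Y : Subgroup (Matrix.SpecialLinearGroup (Fin 2) F)) (hU : U F ≤ Y)
    (hn : ¬ Y ≤ normalizer (U F : Set (Matrix.SpecialLinearGroup (Fin 2) F))) : Y = ⊤ := by
  obtain ⟨g, hg, hgn⟩ := SetLike.not_le_iff_exists.1 hn
  have hup : ∀ b : F, up b ∈ Y := fun b => hU ⟨b, rfl⟩
  have hc : ent g 1 0 ≠ 0 := by
    intro hc
    apply hgn
    -- `g` is upper triangular
    have hd := det_eq g
    rw [hc, mul_zero, sub_zero] at hd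
    have key : ∀ (x : Matrix.SpecialLinearGroup (Fin 2) F) (hx : ent x 1 0 = 0) (b : F),
        x * up b * x⁻¹ ∈ U F := by
      intro x hx b
      have hd := det_eq x
      rw [hx, mul_zero, sub_zero] at hd
      refine ⟨ent x 0 0 * ent x 0 0 * b, ?_⟩
      rw [eq_mul_inv_iff_mul_eq]
      refine ext_ent ?_ ?_ ?_ ?_ <;> simp only [ent_mul, up_00, up_01, up_10, up_11, hx]
      · ring
      · linear_combination (ent x 0 0 * b) * hd
      · ring
      · ring
    rw [mem_normalizer_iff]
    intro x
    constructor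
    · rintro ⟨b, rfl⟩
      exact key g hc b
    · rintro ⟨b, hb⟩
      have hgi : ent g⁻¹ 1 0 = 0 := by
        rw [ent_inv, mk_10, hc, neg_zero]
      have h1 := key g⁻¹ hgi b
      rw [hb] at h1
      have e : g⁻¹ * (g * x * g⁻¹) * g⁻¹⁻¹ = x := by group
      rwa [e] at h1
  -- `lo c ∈ Y`
  have hlo : lo (ent g 1 0) ∈ Y := by
    have h1 := eq_up_lo_up g hc
    have h2 : lo (ent g 1 0) = (up ((ent g 0 0 - 1) / ent g 1 0))⁻¹ * g *
        (up ((ent g 1 1 - 1) / ent g 1 0))⁻¹ := by
      nth_rewrite 4 [h1]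
      group
    rw [h2]
    exact Y.mul_mem (Y.mul_mem (Y.inv_mem (hup _)) hg) (Y.inv_mem (hup _))
  set c := ent g 1 0 with hcd
  -- the Weyl element
  have hw : wm (-c⁻¹) (neg_ne_zero.2 (inv_ne_zero hc)) ∈ Y := by
    have h1 : wm (-c⁻¹) (neg_ne_zero.2 (inv_ne_zero hc)) = up (-c⁻¹) * lo c * up (-c⁻¹) := by
      refine ext_ent ?_ ?_ ?_ ?_ <;>
        simp only [ent_mul, up_00, up_01, up_10, up_11, lo_00, lo_01, lo_10, lo_11, wm_00, wm_01,
          wm_10, wm_11] <;> field_simp <;> ring
    rw [h1]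
    exact Y.mul_mem (Y.mul_mem (hup _) hlo) (hup _)
  have hlo' : ∀ b : F, lo b ∈ Y := by
    intro b
    have h1 := wm_up (-c⁻¹) (-(b * (-c⁻¹) ^ 2)) (neg_ne_zero.2 (inv_ne_zero hc))
    have h2 : -(-(b * (-c⁻¹) ^ 2) / (-c⁻¹) ^ 2) = b := by
      have : (-c⁻¹) ^ 2 ≠ 0 := pow_ne_zero _ (neg_ne_zero.2 (inv_ne_zero hc))
      field_simp
    rw [h2] at h1
    have h3 : lo b = wm (-c⁻¹) (neg_ne_zero.2 (inv_ne_zero hc)) * up (-(b * (-c⁻¹) ^ 2)) *
        (wm (-c⁻¹) (neg_ne_zero.2 (inv_ne_zero hc)))⁻¹ := by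
      rw [h1]; group
    rw [h3]
    exact Y.mul_mem (Y.mul_mem hw (hup _)) (Y.inv_mem hw)
  rw [eq_top_iff]
  intro x _
  obtain ⟨a, b, c', d, rfl⟩ := exists_up_lo x
  exact Y.mul_mem (Y.mul_mem (Y.mul_mem (hup _) (hlo' _)) (hup _)) (hlo' _)

theorem sl_max [Finite F] (P : Sylow 2 (Matrix.SpecialLinearGroup (Fin 2) F))
    (Y : Subgroup (Matrix.SpecialLinearGroup (Fin 2) F))
    (hPY : (P : Subgroup (Matrix.SpecialLinearGroup (Fin 2) F)) ≤ Y)
    (hn : ¬ Y ≤ normalizer ((P : Subgroup (Matrix.SpecialLinearGroup (Fin 2) F)) :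
      Set (Matrix.SpecialLinearGroup (Fin 2) F))) : Y = ⊤ := by
  classical
  have hp : Fact (Nat.Prime 2) := ⟨Nat.prime_two⟩
  have hfin : Finite (Matrix.SpecialLinearGroup (Fin 2) F) := by
    have hf : Fintype F := Fintype.ofFinite F
    infer_instance
  let P0 : Sylow 2 (Matrix.SpecialLinearGroup (Fin 2) F) := isPGroup_U.toSylow index_U
  obtain ⟨g, hg⟩ := MulAction.exists_smul_eq (Matrix.SpecialLinearGroup (Fin 2) F) P P0
  have hmem : ∀ x, x ∈ (P : Subgroup (Matrix.SpecialLinearGroup (Fin 2) F)) ↔ g * x * g⁻¹ ∈ U F := by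
    intro x
    have h1 : (U F : Subgroup (Matrix.SpecialLinearGroup (Fin 2) F)) =
        MulAut.conj g • (P : Subgroup (Matrix.SpecialLinearGroup (Fin 2) F)) := by
      have h0 : ((g • P : Sylow 2 (Matrix.SpecialLinearGroup (Fin 2) F)) :
        Subgroup (Matrix.SpecialLinearGroup (Fin 2) F)) = U F := by rw [hg]; rfl
      exact h0.symm
    rw [h1, Subgroup.mem_pointwise_smul_iff_inv_smul_mem]
    have : (MulAut.conj g)⁻¹ • (g * x * g⁻¹) = x := by
      rw [← map_inv, MulAut.smul_def, MulAut.conj_apply]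
      group
    rw [this]
  have h1 := U_max (Y.map (MulAut.conj g).toMonoidHom) ?_ ?_
  · rw [eq_top_iff]
    intro x _
    have hx : g * x * g⁻¹ ∈ Y.map (MulAut.conj g).toMonoidHom := by rw [h1]; trivial
    obtain ⟨y, hy, hyx⟩ := hx
    have : y = x := (MulAut.conj g).injective hyx
    rwa [← this]
  · intro u hu
    refine ⟨g⁻¹ * u * g, hPY ((hmem _).2 ?_), ?_⟩
    · have : g * (g⁻¹ * u * g) * g⁻¹ = u := by group
      rwa [this]
    · show g * (g⁻¹ * u * g) * g⁻¹ = u
      group
  · intro hle
    apply hn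
    intro y hy
    have h2 := hle ⟨y, hy, rfl⟩
    rw [mem_normalizer_iff] at h2 ⊢
    intro x
    have h3 := h2 (g * x * g⁻¹)
    rw [hmem, hmem]
    have e : (MulAut.conj g).toMonoidHom y * (g * x * g⁻¹) * ((MulAut.conj g).toMonoidHom y)⁻¹ =
        g * (y * x * y⁻¹) * g⁻¹ := by
      show g * y * g⁻¹ * (g * x * g⁻¹) * (g * y * g⁻¹)⁻¹ = _
      group
    rw [e] at h3
    exact h3

noncomputable def slEquiv [Finite F] : Matrix.SpecialLinearGroup (Fin 2) F ≃*
    Matrix.ProjectiveSpecialLinearGroup (Fin 2) F :=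
  letI : Fintype F := Fintype.ofFinite F
  ((QuotientGroup.quotientMulEquivOfEq (S0802.center_eq_bot (F := F))).trans
    QuotientGroup.quotientBot).symm

theorem sl_simple [Finite F] (h4 : 4 ≤ Nat.card F) :
    IsSimpleGroup (Matrix.SpecialLinearGroup (Fin 2) F) := by
  have h1 : IsSimpleGroup (Matrix.ProjectiveSpecialLinearGroup (Fin 2) F) :=
    Matrix.ProjectiveSpecialLinearGroup.rank_two_simple (by omega)
  exact (MulEquiv.isSimpleGroup_congr slEquiv).2 h1

theorem good_sl [Finite F] (h4 : 4 ≤ Nat.card F) : Good (Matrix.SpecialLinearGroup (Fin 2) F) := by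
  refine ⟨sl_simple h4, sl_inv, sl_max, Or.inr ⟨?_, up 1, lo 1, fun h => ?_⟩⟩
  · have h1 : Nat.card F ∣ Nat.card (Matrix.SpecialLinearGroup (Fin 2) F) := by
      rw [← card_U]; exact Subgroup.card_subgroup_dvd_card _
    refine dvd_trans ?_ h1
    classical
    have hf : Fintype F := Fintype.ofFinite F
    obtain ⟨n, -, hn⟩ := FiniteField.card F 2
    rw [Nat.card_eq_fintype_card, hn]
    exact dvd_pow_self 2 n.2.ne'
  have := congrArg (fun x => ent x 0 0) h
  simp only [ent_mul, up_00, up_01, up_10, lo_00, lo_01, lo_10] at this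
  have h1 : (1 : F) = 0 := by linear_combination this
  exact one_ne_zero h1

end SL

end Cfsg.Agent.H282.PU
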