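import Cfsg.Agent.PushGen.Red
import Cfsg.Agent.H282.PU.Sl

/-!
# S3090: the groups `K T`

`Ctx K M Q T`: `K = O²(K)`, `M = N(K)`, `Q = O₂(K T)`, `K / O₂(K)` is `Z₃` or `SL₂(2ⁿ)`, `T` is a 2-subgroup of `M`
over a Sylow 2-subgroup of `K Q`.
-/

set_option autoImplicit false
set_option linter.unusedSectionVars false

namespace Cfsg.Agent.H282.PU

open Subgroup Cfsg Cfsg.Agent.PLocal.ThompsonJ Cfsg.Agent.ZN.ChoiceBase
open Cfsg.Agent.ZN (o2 zl zj jj bau zc)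
open Cfsg.Agent.ZN.ChoiceSit
open Cfsg.Agent.Omega.SQ1.FFOne (mem_norm_of conj_mem_of_norm)
open Cfsg.Agent.MinSimple.VModule (oddGen mem_oddGen oddGen_le le_normalizer_oddGen)
open Cfsg.Agent.MinSimple.MinParabolic (IsMinPar)
open scoped Pointwise

universe u

variable {G : Type u} [Group G] [Finite G]

structure Ctx (K M Q T : Subgroup G) : Prop where
  c2 : IsCharacteristicTwoType G
  eM : M = normalizer (K : Set G)
  gen : oddGen K = K
  good : Good (↥K ⧸ pCore 2 ↥K)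
  two : IsPGroup 2 T
  QT : Q ≤ T
  TM : T ≤ M
  KQ : K ≤ normalizer (Q : Set G)
  tr : ∀ q ∈ Q, ∀ k ∈ K, q * k * q⁻¹ * k⁻¹ ∈ o2 K
  syl : ∀ S : Subgroup G, IsPGroup 2 S → Q ≤ S → S ≤ M →
    (∀ s ∈ S, ∀ k ∈ K, s * k * s⁻¹ * k⁻¹ ∈ o2 K) → S = Q
  OQ : o2 K ≤ Q
  sylK : Syl (T ⊓ K) K
  loc : ∀ R : Subgroup G, IsPGroup 2 R → R ≠ ⊥ → K ≤ normalizer (R : Set G) →
    T ≤ normalizer (R : Set G) → normalizer (R : Set G) ≤ M
  cQ : centralizer (Q : Set G) ≤ Q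
  Q1 : Q ≠ ⊥

namespace Ctx

variable {K M Q T : Subgroup G}

theorem mono (c : Ctx K M Q T) {T' : Subgroup G} (h : T ≤ T') (h2 : IsPGroup 2 T') (hM : T' ≤ M) :
    Ctx K M Q T' :=
  { c with
    two := h2
    QT := c.QT.trans h
    TM := hM
    sylK := by
      refine ⟨inf_le_right, h2.to_le inf_le_left, fun P hP hP2 hTP => ?_⟩
      have h1 := c.sylK.2.2 P hP hP2 ((inf_le_inf_right _ h).trans hTP)
      exact le_antisymm (by rw [h1]; exact inf_le_inf_right _ h) hTP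
    loc := fun R hR hR1 hK hT => c.loc R hR hR1 hK (h.trans hT) }

variable (c : Ctx K M Q T)

include c

theorem KM : K ≤ M := by rw [c.eM]; exact le_normalizer

theorem MK {x k : G} (hx : x ∈ M) (hk : k ∈ K) : x * k * x⁻¹ ∈ K := by
  rw [c.eM] at hx
  exact (mem_normalizer_iff.1 hx k).1 hk

theorem MO {x k : G} (hx : x ∈ M) (hk : k ∈ o2 K) : x * k * x⁻¹ ∈ o2 K := by
  have h1 : M ≤ normalizer ((o2 K : Subgroup G) : Set G) := by
    rw [c.eM]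
    exact normalizer_le_of_cj (F := fun K => o2 K) pCore_cj K
  exact conj_mem_of_norm (h1 hx) hk

/-- the elements of `M` acting trivially on `K / O₂(K)` -/
def Cc (c : Ctx K M Q T) : Subgroup G where
  carrier := {x | x ∈ M ∧ ∀ k ∈ K, x * k * x⁻¹ * k⁻¹ ∈ o2 K}
  one_mem' := ⟨M.one_mem, fun k _ => by simp [one_mem]⟩
  mul_mem' := by
    rintro x y ⟨hx, hx'⟩ ⟨hy, hy'⟩
    refine ⟨M.mul_mem hx hy, fun k hk => ?_⟩
    have h1 := mul_mem (c.MO hx (hy' k hk)) (hx' k hk)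
    have e : x * (y * k * y⁻¹ * k⁻¹) * x⁻¹ * (x * k * x⁻¹ * k⁻¹) = x * y * k * (x * y)⁻¹ * k⁻¹ := by
      group
    rwa [e] at h1
  inv_mem' := by
    rintro x ⟨hx, hx'⟩
    refine ⟨M.inv_mem hx, fun k hk => ?_⟩
    have h1 := c.MO (M.inv_mem hx) (inv_mem (hx' k hk))
    have e : x⁻¹ * (x * k * x⁻¹ * k⁻¹)⁻¹ * x⁻¹⁻¹ = x⁻¹ * k * x⁻¹⁻¹ * k⁻¹ := by group
    rwa [e] at h1

theorem mem_Cc {x : G} : x ∈ c.Cc ↔ x ∈ M ∧ ∀ k ∈ K, x * k * x⁻¹ * k⁻¹ ∈ o2 K := Iff.rfl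

theorem Cc_norm {x y : G} (hx : x ∈ M) (hy : y ∈ c.Cc) : x * y * x⁻¹ ∈ c.Cc := by
  refine ⟨M.mul_mem (M.mul_mem hx hy.1) (M.inv_mem hx), fun k hk => ?_⟩
  have h1 := c.MK (M.inv_mem hx) hk
  rw [inv_inv] at h1
  have h2 := c.MO hx (hy.2 _ h1)
  have e : x * (y * (x⁻¹ * k * x) * y⁻¹ * (x⁻¹ * k * x)⁻¹) * x⁻¹ =
    x * y * x⁻¹ * k * (x * y * x⁻¹)⁻¹ * k⁻¹ := by group
  rwa [e] at h2

theorem Q_le_Cc : Q ≤ c.Cc := fun q hq => ⟨c.TM (c.QT hq), c.tr q hq⟩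

theorem inf_Cc {P : Subgroup G} (hP : IsPGroup 2 P) (hQP : Q ≤ P) : P ⊓ c.Cc = Q :=
  c.syl _ (hP.to_le inf_le_left) (le_inf hQP c.Q_le_Cc) (fun _ hx => hx.2.1) (fun _ hx => hx.2.2)

theorem norm_Q {P : Subgroup G} (hP : IsPGroup 2 P) (hQP : Q ≤ P) (hPM : P ≤ M) :
    P ≤ normalizer (Q : Set G) := by
  intro x hx
  refine mem_norm_of fun q hq => ?_
  rw [← c.inf_Cc hP hQP] at hq ⊢
  exact ⟨P.mul_mem (P.mul_mem hx hq.1) (P.inv_mem hx), c.Cc_norm (hPM hx) hq.2⟩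

theorem TQ : T ≤ normalizer (Q : Set G) := c.norm_Q c.two c.QT c.TM

theorem HQ : K ⊔ T ≤ normalizer (Q : Set G) := sup_le c.KQ c.TQ

theorem HM : K ⊔ T ≤ M := sup_le c.KM c.TM

theorem Q2 : IsPGroup 2 Q := c.two.to_le c.QT

theorem o2_eq : o2 (K ⊔ T) = Q := by
  have h1 : Q ≤ o2 (K ⊔ T) := le_o2 c.Q2 (c.QT.trans le_sup_right) c.HQ
  refine c.syl _ (isPGroup_o2 _) h1 ((o2_le _).trans c.HM) ?_
  intro s hs k hk
  have h2 : o2 (K ⊔ T) ⊓ K ≤ o2 K := by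
    refine le_o2 ((isPGroup_o2 _).to_le inf_le_left) inf_le_right fun x hx => mem_norm_of ?_
    rintro y ⟨hy, hyK⟩
    exact ⟨conj_mem_of_norm (le_normalizer_o2 _ ((le_sup_left : K ≤ K ⊔ T) hx)) hy,
      K.mul_mem (K.mul_mem hx hyK) (K.inv_mem hx)⟩
  apply h2
  refine ⟨?_, K.mul_mem (c.MK (c.HM (o2_le _ hs)) hk) (K.inv_mem hk)⟩
  have h3 := mul_mem hs (conj_mem_of_norm (le_normalizer_o2 _ ((le_sup_left : K ≤ K ⊔ T) hk))
    (inv_mem hs))
  have e : s * (k * s⁻¹ * k⁻¹) = s * k * s⁻¹ * k⁻¹ := by group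
  rwa [e] at h3

theorem exists_mul {x : G} (hx : x ∈ K ⊔ T) : ∃ k ∈ K, ∃ t ∈ T, x = k * t := by
  have hle : T ≤ normalizer (K : Set G) := by rw [← c.eM]; exact c.TM
  have h1 : x ∈ (K : Set G) * (T : Set G) := by
    rw [← Subgroup.coe_mul_of_right_le_normalizer_left _ _ hle]; exact hx
  obtain ⟨k, hk, t, ht, rfl⟩ := Set.mem_mul.1 h1
  exact ⟨k, hk, t, ht, rfl⟩

theorem sylH : Syl T (K ⊔ T) := by
  refine ⟨le_sup_right, c.two, fun P hP hP2 hTP => le_antisymm (fun p hp => ?_) hTP⟩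
  obtain ⟨k, hk, t, ht, rfl⟩ := c.exists_mul (hP hp)
  have h1 : k ∈ P ⊓ K := by
    refine ⟨?_, hk⟩
    have := P.mul_mem hp (P.inv_mem (hTP ht))
    rwa [mul_inv_cancel_right] at this
  rw [c.sylK.2.2 (P ⊓ K) inf_le_right (hP2.to_le inf_le_left) (inf_le_inf_right _ hTP)] at h1
  exact T.mul_mem h1.1 ht

theorem pow_mem {k t : G} (hk : k ∈ K) (ht : t ∈ T) (n : ℕ) : ∃ k' ∈ K, (k * t) ^ n = k' * t ^ n := by
  induction n with
  | zero => exact ⟨1, K.one_mem, by simp⟩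
  | succ n ih =>
    obtain ⟨k', hk', h⟩ := ih
    refine ⟨k' * (t ^ n * k * (t ^ n)⁻¹), K.mul_mem hk' (c.MK (c.TM (T.pow_mem ht n)) hk), ?_⟩
    rw [pow_succ, h, pow_succ]
    group

theorem odd_mem {x : G} (hx : x ∈ K ⊔ T) (ho : Odd (orderOf x)) : x ∈ K := by
  obtain ⟨k, hk, t, ht, rfl⟩ := c.exists_mul hx
  obtain ⟨n, hn⟩ := c.two ⟨t, ht⟩
  have hn' : t ^ 2 ^ n = 1 := by simpa using congrArg Subtype.val hn
  obtain ⟨k', hk', h⟩ := c.pow_mem hk ht (2 ^ n)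
  rw [hn', mul_one] at h
  have h1 : (k * t) ^ 2 ^ n ∈ K := by rw [h]; exact hk'
  have h2 : Nat.Coprime (2 ^ n) (orderOf (k * t)) := Nat.Coprime.pow_left _ (Nat.coprime_two_left.2 ho)
  obtain ⟨m, hm⟩ := exists_pow_eq_self_of_coprime h2
  rw [← hm]
  exact K.pow_mem h1 m

theorem oddGen_eq : oddGen (K ⊔ T) = K := by
  apply le_antisymm
  · rw [Cfsg.Agent.MinSimple.VModule.oddGen_def, closure_le]
    rintro x ⟨hx, ho⟩
    exact c.odd_mem hx ho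
  · conv_lhs => rw [← c.gen]
    rw [Cfsg.Agent.MinSimple.VModule.oddGen_def, closure_le]
    rintro x ⟨hx, ho⟩
    exact mem_oddGen ((le_sup_left : K ≤ K ⊔ T) hx) ho

theorem norm_T_of_eq (h : T = Q) : normalizer (T : Set G) ≤ M := by
  rw [h]
  exact c.loc Q c.Q2 c.Q1 c.KQ c.TQ

/-! ### The quotient -/

theorem OT : o2 K ≤ T ⊓ K := le_inf (c.OQ.trans c.QT) (o2_le K)

theorem mem_pCore {x : G} (hx : x ∈ K) : (⟨x, hx⟩ : K) ∈ pCore 2 ↥K ↔ x ∈ o2 K := by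
  constructor
  · intro h; exact ⟨⟨x, hx⟩, h, rfl⟩
  · rintro ⟨y, hy, hyx⟩
    have : y = ⟨x, hx⟩ := Subtype.ext hyx
    rwa [← this]

/-- proper subgroups of `K` over `T ∩ K` normalise `T ∩ K` -/
theorem max_K {Y : Subgroup G} (hTY : T ⊓ K ≤ Y) (hYK : Y ≤ K) (hne : Y ≠ K) :
    Y ≤ normalizer ((T ⊓ K : Subgroup G) : Set G) := by
  have hp : Fact (Nat.Prime 2) := ⟨Nat.prime_two⟩
  obtain ⟨P, hP⟩ := syl_iff.1 c.sylK
  set π := QuotientGroup.mk' (pCore 2 ↥K) with hπ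
  have hπs : Function.Surjective π := QuotientGroup.mk'_surjective _
  have hker : ∀ {x y : K}, π x = π y → x⁻¹ * y ∈ pCore 2 ↥K := fun h => QuotientGroup.eq.1 h
  have hPm : ∀ x : K, x ∈ (P : Subgroup K) ↔ (x : G) ∈ T ⊓ K := by
    intro x
    rw [← hP]
    constructor
    · intro hx; exact ⟨x, hx, rfl⟩
    · rintro ⟨y, hy, hyx⟩
      have : y = x := Subtype.ext hyx
      rwa [← this]
  have hPπ : ∀ x : K, π x ∈ (P : Subgroup K).map π → x ∈ (P : Subgroup K) := by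
    rintro x ⟨y, hy, hyx⟩
    have h1 := hker hyx
    have h2 : ((y⁻¹ * x : K) : G) ∈ T ⊓ K := c.OT ((c.mem_pCore (y⁻¹ * x).2).1 h1)
    have h3 := (P : Subgroup K).mul_mem hy ((hPm _).2 h2)
    rwa [mul_inv_cancel_left] at h3
  by_contra hn
  apply hne
  have h1 := c.good.max (P.mapSurjective (f := π) hπs) ((Y.subgroupOf K).map π) ?_ ?_
  · apply le_antisymm hYK
    intro k hk
    have h2 : π ⟨k, hk⟩ ∈ (Y.subgroupOf K).map π := by rw [h1]; trivial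
    obtain ⟨y, hy, hyk⟩ := h2
    have h3 := hker hyk
    have h4 : ((y⁻¹ * ⟨k, hk⟩ : K) : G) ∈ Y := hTY (c.OT ((c.mem_pCore (y⁻¹ * ⟨k, hk⟩).2).1 h3))
    have h5 := Y.mul_mem (mem_subgroupOf.1 hy) h4
    have e : (y : G) * ((y⁻¹ * ⟨k, hk⟩ : K) : G) = k := by
      show (y : G) * ((y : G)⁻¹ * k) = k
      group
    rwa [e] at h5
  · rintro _ ⟨x, hx, rfl⟩
    exact ⟨x, mem_subgroupOf.2 (hTY ((hPm x).1 hx)), rfl⟩
  · intro hle
    apply hn
    intro y hy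
    refine mem_norm_of fun k hk => ?_
    have hy' := mem_normalizer_iff.1 (hle ⟨⟨y, hYK hy⟩, mem_subgroupOf.2 hy, rfl⟩) (π ⟨k, hk.2⟩)
    have h2 := hy'.1 ⟨⟨k, hk.2⟩, (hPm _).2 hk, rfl⟩
    rw [← map_mul, ← map_inv, ← map_mul] at h2
    exact (hPm _).1 (hPπ _ h2)

/-- simplicity -/
theorem simple_K {N : Subgroup G} (hNK : N ≤ K) (hn : ∀ k ∈ K, ∀ x ∈ N, k * x * k⁻¹ ∈ N) :
    N ≤ o2 K ∨ ∀ k ∈ K, ∃ x ∈ N, x⁻¹ * k ∈ o2 K := by
  have := c.good.simple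
  set π := QuotientGroup.mk' (pCore 2 ↥K) with hπ
  have hπs : Function.Surjective π := QuotientGroup.mk'_surjective _
  have hN : (N.subgroupOf K).Normal := ⟨fun x hx k => mem_subgroupOf.2 (hn k k.2 x (mem_subgroupOf.1 hx))⟩
  have hN' : ((N.subgroupOf K).map π).Normal := hN.map π hπs
  rcases hN'.eq_bot_or_eq_top with h | h
  · left
    intro x hx
    have h1 : π ⟨x, hNK hx⟩ ∈ (N.subgroupOf K).map π := ⟨_, mem_subgroupOf.2 hx, rfl⟩
    rw [h, mem_bot] at h1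
    exact (c.mem_pCore (hNK hx)).1 ((QuotientGroup.eq_one_iff _).1 h1)
  · right
    intro k hk
    have h1 : π ⟨k, hk⟩ ∈ (N.subgroupOf K).map π := by rw [h]; trivial
    obtain ⟨x, hx, hxk⟩ := h1
    have h2 : x⁻¹ * ⟨k, hk⟩ ∈ pCore 2 ↥K := QuotientGroup.eq.1 hxk
    exact ⟨x, mem_subgroupOf.1 hx, (c.mem_pCore (x⁻¹ * ⟨k, hk⟩).2).1 h2⟩

theorem K_ne : ¬ K ≤ o2 K := by
  intro h
  have hp : Fact (Nat.Prime 2) := ⟨Nat.prime_two⟩
  have := c.good.simple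
  have h1 : Subsingleton (↥K ⧸ pCore 2 ↥K) := by
    refine ⟨fun x y => ?_⟩
    obtain ⟨x, rfl⟩ := QuotientGroup.mk_surjective x
    obtain ⟨y, rfl⟩ := QuotientGroup.mk_surjective y
    rw [QuotientGroup.eq]
    exact (c.mem_pCore (x⁻¹ * y).2).2 (h (x⁻¹ * y).2)
  exact not_subsingleton (↥K ⧸ pCore 2 ↥K) h1

theorem K_not_two : ¬ IsPGroup 2 K := by
  intro h
  exact c.K_ne (le_o2 h le_rfl le_normalizer)

/-- `K ≤ N(P)` for a 2-subgroup `P` implies that `P ∩ K` is in `O₂(K)` -/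
theorem inf_le_o2 {P : Subgroup G} (hP : IsPGroup 2 P) (hn : K ≤ normalizer (P : Set G)) :
    P ⊓ K ≤ o2 K := by
  refine le_o2 (hP.to_le inf_le_left) inf_le_right fun x hx => mem_norm_of ?_
  rintro y ⟨hy, hyK⟩
  exact ⟨conj_mem_of_norm (hn hx) hy, K.mul_mem (K.mul_mem hx hyK) (K.inv_mem hx)⟩

/-- in the case `Z₃`, `T ∩ K = O₂(K)` and there is nothing between `O₂(K)` and `K` -/
theorem three_K (h3 : Nat.card (↥K ⧸ pCore 2 ↥K) = 3) {Y : Subgroup G} (hTY : o2 K ≤ Y) (hYK : Y ≤ K)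
    (hne : Y ≠ K) : Y = o2 K := by
  have h4 : (pCore 2 ↥K).index = 3 := h3
  have h5 : (o2 K).relIndex K = 3 := by
    rw [← h4, relIndex]
    congr 1
    ext x
    rw [mem_subgroupOf]
    exact (c.mem_pCore x.2).symm
  have h6 := Subgroup.relIndex_mul_relIndex (o2 K) Y K hTY hYK
  rw [h5] at h6
  have h7 : Y.relIndex K ∣ 3 := ⟨_, by rw [mul_comm]; exact h6.symm⟩
  rcases (Nat.dvd_prime Nat.prime_three).1 h7 with h8 | h8
  · exact absurd (le_antisymm hYK (relIndex_eq_one.1 h8)) hne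
  · rw [h8] at h6
    have h9 : (o2 K).relIndex Y = 1 := by omega
    exact le_antisymm (relIndex_eq_one.1 h9) hTY

theorem sylK_three (h3 : Nat.card (↥K ⧸ pCore 2 ↥K) = 3) : T ⊓ K = o2 K := by
  apply c.three_K h3 c.OT inf_le_right
  intro h
  apply c.K_not_two
  rw [← h]
  exact c.two.to_le inf_le_left

theorem even_not (h2 : 2 ∣ Nat.card (↥K ⧸ pCore 2 ↥K)) : ¬ T ⊓ K ≤ o2 K := by
  intro h
  have h1 : T ⊓ K = o2 K := le_antisymm h c.OT
  have h3 := syl_not_dvd c.sylK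
  apply h3
  rw [h1]
  have h4 : (o2 K).relIndex K = Nat.card (↥K ⧸ pCore 2 ↥K) := by
    rw [← Subgroup.index_eq_card, relIndex]
    congr 1
    ext x
    rw [mem_subgroupOf]
    exact (c.mem_pCore x.2).symm
  rw [h4]
  exact h2

/-- **`K T` is a minimal parabolic.** -/
theorem minPar (hne : T ≠ Q) : IsMinPar T (K ⊔ T) where
  le := le_sup_right
  not_le := by
    intro h
    apply hne
    have h1 : T ≤ o2 (K ⊔ T) := le_o2 c.two le_sup_right h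
    rw [c.o2_eq] at h1
    exact le_antisymm h1 c.QT
  exists_max := by
    have key : ∀ X : Subgroup G, T ≤ X → X < K ⊔ T → X ⊓ K ≠ K := by
      intro X hTX hX he
      exact hX.not_ge (sup_le (inf_eq_right.1 he) hTX)
    have dec : ∀ X : Subgroup G, T ≤ X → X < K ⊔ T → ∀ N : Subgroup G, X ⊓ K ≤ N → T ≤ N → X ≤ N := by
      intro X hTX hX N h1 h2 x hx
      obtain ⟨k, hk, t, ht, rfl⟩ := c.exists_mul (hX.le hx)
      have h3 : k ∈ X := by
        have := X.mul_mem hx (X.inv_mem (hTX ht))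
        rwa [mul_inv_cancel_right] at this
      exact N.mul_mem (h1 ⟨h3, hk⟩) (h2 ht)
    rcases c.good.dich with h3 | ⟨h2, -⟩
    · refine ⟨T, lt_of_le_of_ne le_sup_right fun h => ?_, fun X hTX hX => ?_⟩
      · apply c.K_not_two
        exact c.two.to_le (by rw [h]; exact le_sup_left)
      · refine dec X hTX hX T ?_ le_rfl
        rw [c.three_K h3 (le_inf (c.OQ.trans (c.QT.trans hTX)) (o2_le K)) inf_le_right (key X hTX hX)]
        exact c.OQ.trans c.QT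
    · refine ⟨(K ⊔ T) ⊓ normalizer ((T ⊓ K : Subgroup G) : Set G), ?_, fun X hTX hX => ?_⟩
      · refine lt_of_le_of_ne inf_le_left fun h => ?_
        apply c.even_not h2
        have h3 : K ≤ normalizer ((T ⊓ K : Subgroup G) : Set G) := by
          have := inf_eq_left.1 h
          exact le_sup_left.trans this
        have h4 := c.inf_le_o2 (c.two.to_le inf_le_left) h3
        rwa [inf_assoc, inf_idem] at h4
      · refine le_inf hX.le (dec X hTX hX _ ?_ ?_)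
        · exact c.max_K (inf_le_inf_right _ hTX) inf_le_right (key X hTX hX)
        · intro t ht
          refine mem_norm_of fun k hk => ?_
          exact ⟨T.mul_mem (T.mul_mem ht hk.1) (T.inv_mem ht), c.MK (c.TM ht) hk.2⟩

theorem ne_bot : T ≠ ⊥ := fun h => c.Q1 (by rw [eq_bot_iff, ← h]; exact c.QT)

/-- The configuration for the pushing up theorems. -/
theorem cf (hn : ¬ normalizer (T : Set G) ≤ M) : Cfsg.Agent.PushGen.Cf T (K ⊔ T) where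
  syl := c.sylH
  mp := c.minPar fun h => hn (c.norm_T_of_eq h)
  sc := by
    rw [c.o2_eq]
    exact inf_le_right.trans c.cQ
  ne := c.ne_bot
  char := by
    intro R hRT h1 h2
    by_contra hR
    exact hn (h1.trans (c.loc R (c.two.to_le hRT) hR (le_sup_left.trans h2) (le_sup_right.trans h2)))

end Ctx

end Cfsg.Agent.H282.PU
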