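import Cfsg.Agent.H282.PU.Reps
import Cfsg.Agent.UGT.A7.Five

/-!
# S3090: the end
-/

set_option autoImplicit false
set_option linter.unusedSectionVars false
set_option linter.unusedVariables false

namespace Cfsg.Agent.H282.PU

open Subgroup Cfsg Cfsg.Agent.PLocal.ThompsonJ Cfsg.Agent.ZN.ChoiceBase
open Cfsg.Agent.ZN (o2 zl zj jj bau zc)
open Cfsg.Agent.ZN.ChoiceSit
open Cfsg.Agent.Omega.NatPair Cfsg.Agent.Lib.SL2Mat
open Cfsg.Agent.Omega.SQ1.FFOne Cfsg.Agent.Omega.SQ1.VOf
open Cfsg.Agent.Omega.FFThm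
open Cfsg.Agent.Omega.FrameFF (cv)
open Cfsg.Agent.Omega.SQ1.FFOf (off_of_AA cv_le cv_norm)
open scoped Pointwise

universe u v

variable {G : Type u} [Group G] [Finite G]

/-- a good group of order dividing 6 has order 3 -/
theorem Good.card_three {X : Type u} [Group X] (g : Good X) (h6 : Nat.card X ∣ 6) : Nat.card X = 3 := by
  rcases g.dich with h3 | ⟨h2, a, b, hab⟩
  · exact h3
  exfalso
  have hs := g.simple
  have hpos : 0 < Nat.card X := Nat.pos_of_dvd_of_pos h6 (by norm_num)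
  have hf : Finite X := Nat.finite_of_card_ne_zero hpos.ne'
  have hle : Nat.card X ≤ 6 := Nat.le_of_dvd (by norm_num) h6
  have h26 : Nat.card X = 2 ∨ Nat.card X = 6 := by
    interval_cases h : Nat.card X <;> omega
  rcases h26 with h | h
  · have hp : Fact (Nat.Prime 2) := ⟨Nat.prime_two⟩
    have hc : IsCyclic X := isCyclic_of_prime_card h
    exact hab (IsCyclic.commGroup.mul_comm a b)
  · have hp : Fact (Nat.Prime 3) := ⟨Nat.prime_three⟩
    obtain ⟨y, hy⟩ := exists_prime_orderOf_dvd_card' (G := X) 3 (by rw [h]; norm_num)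
    have h3 : Nat.card (zpowers y) = 3 := by rw [Nat.card_zpowers, hy]
    have h2 : (zpowers y).index = 2 := by
      have := (zpowers y).card_mul_index
      rw [h3, h] at this
      omega
    have hn : (zpowers y).Normal := Subgroup.normal_of_index_eq_two h2
    rcases hn.eq_bot_or_eq_top with h1 | h1
    · rw [h1, Subgroup.card_bot] at h3
      omega
    · rw [h1, index_top] at h2
      omega

namespace Conf

variable {K M Q T : Subgroup G} {s : G} {S : Sylow 2 G} (c : Conf K M Q T s S)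

include c

theorem two_le : 2 ≤ Q.relIndex T := by
  have h1 : Q.relIndex T ≠ 0 := Subgroup.FiniteIndex.index_ne_zero
  have h2 : Q.relIndex T ≠ 1 := fun h => c.ne_Q (le_antisymm (relIndex_eq_one.1 h) c.QT)
  omega

/-- **Sums of natural modules.** -/
theorem nat_end {F : Type} [Field F] [Finite F] [CharP F 2] {k : ℕ} (hk : 0 < k)
    (N : NatK F T (K ⊔ T) (zl T (K ⊔ T)) (cv T (K ⊔ T)) k) : SectionalPRankLE 2 4 G := by
  have r := c.repN hk N
  have hk1 := r.eq_one
  subst hk1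
  rcases Nat.lt_or_ge (Nat.card F) 4 with h4 | h4
  swap
  · exact c.big h4 N
  classical
  let _ : Fintype F := Fintype.ofFinite F
  have h2 : Nat.card F = 2 := by
    obtain ⟨n, -, hn⟩ := FiniteField.card F 2
    rw [Nat.card_eq_fintype_card] at h4 ⊢
    rw [hn] at h4 ⊢
    have h5 : (n : ℕ) < 2 := by
      by_contra h5
      push Not at h5
      have : 2 ^ 2 ≤ 2 ^ (n : ℕ) := Nat.pow_le_pow_right (by norm_num) h5
      omega
    have h6 : (n : ℕ) = 1 := by
      have := n.pos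
      omega
    rw [h6, pow_one]
  obtain ⟨f, hker, -, -⟩ := r.exists_hom
  have h6 : Nat.card (↥K ⧸ pCore 2 ↥K) ∣ 6 := by
    have h7 : Nat.card (↥K ⧸ pCore 2 ↥K) = Nat.card f.range := by
      rw [← hker]
      exact Nat.card_congr (QuotientGroup.quotientKerEquivRange f).toEquiv
    have h8 : Nat.card (Matrix.SpecialLinearGroup (Fin 2) F) = 6 := by
      rw [Cfsg.Agent.ClassicalGeometry.PSL2Basic.card_SL2, ← Nat.card_eq_fintype_card, h2]
      norm_num
    rw [h7, ← h8]
    exact Subgroup.card_subgroup_dvd_card _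
  have h3 := c.good.card_three h6
  have hAut : Nat.card (MulAut (↥K ⧸ pCore 2 ↥K)) = 2 := by
    have hp : Fact (Nat.Prime 3) := ⟨Nat.prime_three⟩
    have hc : IsCyclic (↥K ⧸ pCore 2 ↥K) := isCyclic_of_prime_card h3
    rw [IsCyclic.card_mulAut, h3]
    decide
  have hS : Syl T M := c.toCtx.syl_M (n := 2) (fun P hP hQP hPM => by
    have := c.toCtx.relIndex_dvd hP hQP hPM
    rw [hAut] at this
    exact Nat.le_of_dvd two_pos this) c.two_le
  exact c.two_end hS one_pos le_rfl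
    (Cfsg.Agent.Omega.SQ1.SymOfNat.symOf N h2 (fun h hh v hv => zl_norm h hh v hv) le_sup_right)

/-- the point set has at most 5 elements -/
theorem m_le {m : ℕ} (hm : 2 ≤ m) {f : K →* Equiv.Perm (Fin (2 ^ m + 1))} (hker : f.ker = pCore 2 ↥K)
    (hodd : ∀ γ, Odd (orderOf γ) → ∃ x, f x = γ) : m = 2 := by
  by_contra hne
  have hm3 : 3 ≤ m := by omega
  have h7 : 7 ≤ 2 ^ m + 1 := by
    have : 2 ^ 3 ≤ 2 ^ m := Nat.pow_le_pow_right (by norm_num) hm3
    omega
  let φ : Equiv.Perm (Fin 7) →* Equiv.Perm (Fin (2 ^ m + 1)) := Equiv.Perm.viaEmbeddingHom (Fin.castLEEmb h7)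
  have hφ : Function.Injective φ := Equiv.Perm.viaEmbeddingHom_injective _
  have h3 : ∀ σ : Equiv.Perm (Fin 7), σ ^ 3 = 1 → ∃ x, f x = φ σ := by
    intro σ hσ
    apply hodd
    have h4 : φ σ ^ 3 = 1 := by rw [← map_pow, hσ, map_one]
    exact Odd.of_dvd_nat (by decide) (orderOf_dvd_of_pow_eq_one h4)
  obtain ⟨x₁, hx₁⟩ := h3 (Equiv.swap 0 1 * Equiv.swap 1 2) (by decide)
  obtain ⟨x₂, hx₂⟩ := h3 ((Equiv.swap 0 1 * Equiv.swap 1 2)⁻¹ * (Equiv.swap 0 1 * Equiv.swap 2 3)) (by decide)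
  obtain ⟨x₃, hx₃⟩ := h3 (Equiv.swap 4 5 * Equiv.swap 5 6) (by decide)
  have h12 : f (x₁ * x₂) = φ (Equiv.swap 0 1 * Equiv.swap 2 3) := by
    rw [map_mul, hx₁, hx₂, ← map_mul, mul_inv_cancel_left]
  have hmk : ∀ x : K, (QuotientGroup.mk x : ↥K ⧸ pCore 2 ↥K) = 1 ↔ f x = 1 := by
    intro x
    rw [QuotientGroup.eq_one_iff, ← hker, MonoidHom.mem_ker]
  have h1 := c.good.inv (QuotientGroup.mk (x₁ * x₂)) (QuotientGroup.mk x₃) ?_ ?_ ?_
  · rw [← QuotientGroup.mk_mul, hmk, map_mul, hx₃, ← map_mul, ← map_one φ] at h1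
    have h2 := hφ h1
    revert h2
    decide
  · rw [← QuotientGroup.mk_mul, hmk, map_mul, h12, ← map_mul, ← map_one φ]
    apply congrArg
    decide
  · intro h
    rw [hmk, h12, ← map_one φ] at h
    have h2 := hφ h
    revert h2
    decide
  · have h2 : f (x₁ * x₂ * x₃) = f (x₃ * (x₁ * x₂)) := by
      rw [map_mul f (x₁ * x₂) x₃, map_mul f x₃ (x₁ * x₂), h12, hx₃, ← map_mul, ← map_mul]
      apply congrArg
      decide
    rw [← QuotientGroup.mk_mul, ← QuotientGroup.mk_mul, QuotientGroup.eq, ← hker, MonoidHom.mem_ker, map_mul,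
      map_inv, h2, inv_mul_cancel]

/-- **The symmetric case.** -/
theorem sym_end {k m : ℕ} (hk : 0 < k) (hm : 2 ≤ m)
    (N : SymK T (K ⊔ T) (zl T (K ⊔ T)) (cv T (K ⊔ T)) k m) : SectionalPRankLE 2 4 G := by
  have r := c.repS hk (by omega) N
  have hk1 := r.eq_one
  subst hk1
  obtain ⟨f, hker, hf, hodd⟩ := r.exists_hom
  obtain rfl := c.m_le hm hker hodd
  -- the range contains the alternating group
  have hle : alternatingGroup (Fin (2 ^ 2 + 1)) ≤ f.range := by
    rw [← Equiv.Perm.closure_three_cycles_eq_alternating, closure_le]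
    intro σ hσ
    have h1 : σ.IsThreeCycle := hσ
    exact hodd σ (by rw [h1.orderOf]; decide)
  obtain ⟨γ, hγ1, hγ⟩ : ∃ γ : Equiv.Perm (Fin (2 ^ 2 + 1)), γ.IsThreeCycle ∧ γ ≠ 1 :=
    ⟨Equiv.swap 0 1 * Equiv.swap 0 2, Equiv.Perm.isThreeCycle_swap_mul_swap_same (by decide) (by decide)
      (by decide), by decide⟩
  obtain ⟨x₀, hx₀⟩ := hodd γ (by rw [hγ1.orderOf]; decide)
  have hge : f.range ≤ alternatingGroup (Fin (2 ^ 2 + 1)) := by
    have h1 := r.cover (fun A => Equiv.Perm.sign (A 0) = 1) (by simp)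
      (fun A B hA hB => by rw [Pi.mul_apply, map_mul, hA, hB, one_mul])
      (fun A hA => by rw [Pi.inv_apply, map_inv, hA, inv_one])
      (fun x hx g hg A hA hxA => by
        obtain ⟨B, hB⟩ := r.all g hg
        refine ⟨_, ?_, r.conj' hg hx hxA hB⟩
        rw [Pi.mul_apply, Pi.mul_apply, Pi.inv_apply, map_mul, map_mul, hA, mul_one, ← map_mul,
          mul_inv_cancel, map_one])
      x₀.2 (hf x₀) (by
        show Equiv.Perm.sign (f x₀) = 1
        rw [hx₀]
        exact hγ1.sign) (by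
        intro h
        apply hγ
        have h2 := congrFun h 0
        rw [← hx₀]
        exact h2)
    rintro _ ⟨x, rfl⟩
    obtain ⟨A, hA, hxA⟩ := h1 x x.2
    have h2 := r.inj _ _ _ hxA (hf x)
    rw [h2] at hA
    exact Equiv.Perm.mem_alternatingGroup.2 hA
  have hrange : f.range = alternatingGroup (Fin (2 ^ 2 + 1)) := le_antisymm hge hle
  let e : ↥K ⧸ pCore 2 ↥K ≃* alternatingGroup (Fin 5) :=
    (QuotientGroup.quotientMulEquivOfEq hker.symm).trans
      ((QuotientGroup.quotientKerEquivRange f).trans (MulEquiv.subgroupCongr hrange))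
  have hAut : Nat.card (MulAut (↥K ⧸ pCore 2 ↥K)) ∣ 120 := by
    obtain ⟨ψ, hψ⟩ := Cfsg.Agent.UGT.A7.Dg.exists_autHom5
    have hinj : Function.Injective ψ := by
      rw [injective_iff_map_eq_one]
      intro g hg
      ext x : 1
      apply Subtype.ext
      rw [hψ, hg]
      simp
    have h1 : Nat.card (MulAut (↥K ⧸ pCore 2 ↥K)) = Nat.card (MulAut (alternatingGroup (Fin 5))) :=
      Nat.card_congr (MulAut.congr e).toEquiv
    have h2 : Nat.card (Equiv.Perm (Fin 5)) = 120 := by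
      rw [Nat.card_perm, Nat.card_eq_fintype_card, Fintype.card_fin]; rfl
    rw [h1, ← h2]
    exact Subgroup.card_dvd_of_injective ψ hinj
  -- `|T : Q| ≥ 8`
  have hT : 8 ≤ Q.relIndex T := by
    have hp : Fact (Nat.Prime 2) := ⟨Nat.prime_two⟩
    have hall : ∀ x : (K ⊔ T : Subgroup G), ∃ τ : Equiv.Perm (Fin (2 ^ 2 + 1)),
        ActsSym N.e (zl T (K ⊔ T)) (x : G) 1 (fun _ => τ) := by
      intro x
      obtain ⟨σ, τ, h⟩ := N.perm x x.2
      refine ⟨τ 0, ?_⟩
      have h1 : σ = 1 := Subsingleton.elim _ _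
      have h2 : τ = fun _ => τ 0 := by funext i; rw [Subsingleton.elim i 0]
      rw [h1, h2] at h
      exact h
    choose τ hτ using hall
    have huniq : ∀ (x : (K ⊔ T : Subgroup G)) (ρ : Fin 1 → Equiv.Perm (Fin (2 ^ 2 + 1))),
        ActsSym N.e (zl T (K ⊔ T)) (x : G) 1 ρ → τ x = ρ 0 := by
      intro x ρ h
      exact congrFun (r.inj _ _ _ (hτ x) h) 0
    let F' : (K ⊔ T : Subgroup G) →* Equiv.Perm (Fin (2 ^ 2 + 1)) := MonoidHom.mk' τ (by
      intro x y
      exact huniq (x * y) _ (r.mul _ _ _ _ (hτ x) y.2 (hτ y)))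
    have hsurj : Function.Surjective F' := by
      intro ρ
      obtain ⟨g, hg, h1⟩ := r.lift fun _ => ρ
      exact ⟨⟨g, hg⟩, huniq ⟨g, hg⟩ _ h1⟩
    obtain ⟨P, hP⟩ := syl_iff.1 c.cf.syl
    have h1 : Nat.card ((P : Subgroup ↥(K ⊔ T : Subgroup G)).map F') = 8 := by
      have h2 := (P.mapSurjective hsurj).card_eq_multiplicity
      have h3 : Nat.card (Equiv.Perm (Fin (2 ^ 2 + 1))) = 2 ^ 3 * 15 := by
        rw [Nat.card_perm, Nat.card_eq_fintype_card, Fintype.card_fin]; rfl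
      have h4 : (Nat.card (Equiv.Perm (Fin (2 ^ 2 + 1)))).factorization 2 = 3 := by
        rw [h3, Nat.factorization_mul (by norm_num) (by norm_num)]
        have h5 : Nat.factorization 15 2 = 0 := Nat.factorization_eq_zero_of_not_dvd (by norm_num)
        rw [Finsupp.add_apply, h5, Nat.factorization_pow, Finsupp.smul_apply,
          Nat.prime_two.factorization_self]
        rfl
      rw [h4] at h2
      exact h2
    rw [← Subgroup.relIndex_ker] at h1
    have h2 : Q.subgroupOf (K ⊔ T) ≤ F'.ker := by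
      intro x hx
      rw [MonoidHom.mem_ker]
      refine huniq x (fun _ => 1) ?_
      have h3 : (x : G) ∈ o2 (K ⊔ T) := by rw [c.o2_eq]; exact hx
      intro v hv i y
      rw [Cfsg.Agent.Omega.SQ1.VOf.MinH.o2_cent c.cf.minH x h3 v hv]
      have e2 : v * (x : G) * (x : G)⁻¹ = v := by group
      rw [e2]; rfl
    have h3 := Subgroup.relIndex_le_of_le_left (L := (P : Subgroup ↥(K ⊔ T : Subgroup G))) h2
      Subgroup.FiniteIndex.index_ne_zero
    rw [h1] at h3
    have h4 : (Q.subgroupOf (K ⊔ T)).relIndex (P : Subgroup ↥(K ⊔ T : Subgroup G)) = Q.relIndex T := by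
      rw [subgroupOf, Subgroup.relIndex_comap, hP]
    rwa [h4] at h3
  have hS : Syl T M := c.toCtx.syl_M (n := 8) (fun P hP hQP hPM => by
    have hp : Fact (Nat.Prime 2) := ⟨Nat.prime_two⟩
    have h1 := (c.toCtx.relIndex_dvd hP hQP hPM).trans hAut
    obtain ⟨n, hn⟩ := hP.index (Q.subgroupOf P)
    have h2 : Q.relIndex P = 2 ^ n := hn
    rw [h2] at h1 ⊢
    have h3 : n < 4 := by
      by_contra h3
      push Not at h3
      have h4 : (2 : ℕ) ^ 4 ∣ 2 ^ n := pow_dvd_pow 2 h3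
      have h5 := h4.trans h1
      revert h5
      norm_num
    calc 2 ^ n ≤ 2 ^ 3 := Nat.pow_le_pow_right (by norm_num) (by omega)
      _ = 8 := by norm_num) hT
  exact c.two_end hS one_pos (by omega) N

/-- **The configuration gives sectional 2-rank at most 4.** -/
theorem final : SectionalPRankLE 2 4 G := by
  rcases c.ff.2 with ⟨F, _, _, _, k, hk, ⟨N⟩⟩ | ⟨k, m, hk, hm2, ⟨N⟩⟩
  · exact c.nat_end hk N
  · exact c.sym_end hk hm2 N

end Conf

end Cfsg.Agent.H282.PU
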