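import Cfsg.Agent.Mrg.Omega.SQ1.NodeI
import Cfsg.Agent.Solvable.SchurZassenhausConj

/-!
# The end `T = B` without simplicity

In the situation `Base` (`k = 1`, `q ≥ 4`) with `T = B`, `G` has a nontrivial normal 2-subgroup.
-/

set_option autoImplicit false
set_option linter.unusedSectionVars false
set_option linter.unusedVariables false

namespace Cfsg.Agent.H282.PU

open Subgroup Cfsg Cfsg.Agent.ZN Cfsg.Agent.ZN.ChoiceSit Cfsg.Agent.ZN.ChoiceBase
open Cfsg.Agent.Omega.SQ1.End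
open Cfsg.Agent.Lib.GoldschmidtFusion (mem_map_conj card_map_conj exists_conj_le_in exists_sylow_in
  lt_inf_normalizer)

open scoped Pointwise

universe u

variable {G : Type u} [Group G] [Finite G]

/-- **Schur–Zassenhaus**: complements of a normal 2-subgroup are conjugate. -/
theorem sz {B W A A' : Subgroup G} (hB : IsPGroup 2 B) (hBW : B ≤ W) (hn : W ≤ normalizer (B : Set G))
    (hodd : ¬ 2 ∣ Nat.card A) (hA : A ≤ W) (hA' : A' ≤ W) (h1 : Nat.card A = B.relIndex W)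
    (h2 : Nat.card A' = B.relIndex W) : ∃ b ∈ B, cj b A = A' := by
  have hp : Fact (Nat.Prime 2) := ⟨Nat.prime_two⟩
  have hN : (B.subgroupOf W).Normal := by
    rw [normal_subgroupOf_iff_le_normalizer hBW]; exact hn
  have hcB : Nat.card (B.subgroupOf W) = Nat.card B := Nat.card_congr (Subgroup.subgroupOfEquivOfLe hBW).toEquiv
  have hcA : Nat.card (A.subgroupOf W) = Nat.card A := Nat.card_congr (Subgroup.subgroupOfEquivOfLe hA).toEquiv
  have hcA' : Nat.card (A'.subgroupOf W) = Nat.card A' :=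
    Nat.card_congr (Subgroup.subgroupOfEquivOfLe hA').toEquiv
  have hcop : (Nat.card (B.subgroupOf W)).Coprime (B.subgroupOf W).index := by
    obtain ⟨n, hn⟩ := IsPGroup.iff_card.1 hB
    rw [hcB, hn]
    apply Nat.Coprime.pow_left
    rw [Nat.prime_two.coprime_iff_not_dvd]
    have h3 : (B.subgroupOf W).index = Nat.card A := h1.symm
    rwa [h3]
  have hc1 := Solvable.SchurZassenhausConj.isComplement'_of_card_eq_index (B.subgroupOf W) (A.subgroupOf W) hcop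
    (by rw [hcA]; exact h1)
  have hc2 := Solvable.SchurZassenhausConj.isComplement'_of_card_eq_index (B.subgroupOf W) (A'.subgroupOf W) hcop
    (by rw [hcA']; exact h2)
  have hsolv : Group.IsSolvable (B.subgroupOf W) := by
    have hB' : IsPGroup 2 (B.subgroupOf W) := hB.comap_subtype
    have := hB'.isNilpotent
    infer_instance
  obtain ⟨w, hw⟩ := Solvable.SchurZassenhausConj.conj_of_solvable (B.subgroupOf W) hcop (Or.inl hsolv) _ _ hc1 hc2
  have h3 : cj (w : G) A = A' := Solvable.SchurZassenhausConj.conj_of_conj_subgroupOf W A A' hA hA' w hw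
  have h4 : w ∈ ((B.subgroupOf W : Set W) * (A.subgroupOf W : Set W)) := by
    rw [hc1.mul_eq]; trivial
  obtain ⟨b, hb, a, ha, hab⟩ := h4
  refine ⟨b, hb, ?_⟩
  have h5 : (w : G) = b * a := (congrArg Subtype.val hab).symm
  have h6 : cj (a : G) A = A := cj_eq_of_mem_normalizer (le_normalizer ha)
  rw [← h3, h5, ← cj_cj, h6]

omit [Finite G] in
theorem relIndex_sup_of {D A : Subgroup G} (hn : A ≤ normalizer (D : Set G)) :
    D.relIndex (D ⊔ A) = D.relIndex A := by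
  rw [sup_comm]
  have := Subgroup.normal_subgroupOf_of_le_normalizer hn
  have := Subgroup.normal_subgroupOf_sup_of_le_normalizer hn
  exact (Nat.card_congr (QuotientGroup.quotientInfEquivProdNormalizerQuotient A D hn).toEquiv).symm

/-- an involution in a 2-group, with a property stable under squares -/
theorem exists_inv' {R : Subgroup G} (h2 : IsPGroup 2 R) (p : G → Prop)
    (hp : ∀ x, p x → p (x ^ 2)) {x : G} (hxR : x ∈ R) (hx : x ≠ 1) (hpx : p x) :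
    ∃ y ∈ R, y ≠ 1 ∧ y ^ 2 = 1 ∧ p y := by
  obtain ⟨n, hn⟩ := h2 ⟨x, hxR⟩
  have hn' : x ^ 2 ^ n = 1 := by simpa using congrArg Subtype.val hn
  clear hn
  induction n generalizing x with
  | zero => exact absurd (by simpa using hn') hx
  | succ n ih =>
    by_cases hxx : x ^ 2 = 1
    · exact ⟨x, hxR, hx, hxx, hpx⟩
    · exact ih (R.pow_mem hxR 2) hxx (hp x hpx) (by rw [← pow_mul, ← pow_succ']; exact hn')

/-- the situation `T = B` -/
structure TEnd (S : Sylow 2 G) (T B Q₁ Q₂ D C₁ C₂ : Subgroup G) (s : G) (q : ℕ) : Prop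
    extends Base (S : Subgroup G) T B Q₁ Q₂ D C₁ C₂ s q where
  leB : T ≤ B
  c2t : IsCharacteristicTwoType G
  go1 : ∀ d e, Gd D C₁ C₂ d → Gd D C₁ C₂ e → ∃ n ∈ normalizer (B : Set G), n * d * n⁻¹ = e
  cent : ∀ z, Gd D C₁ C₂ z → centralizer ({z} : Set G) ≤ normalizer (B : Set G)
  fus1 : ∀ x ∈ Q₁, ∃ l : G, l * x * l⁻¹ ∈ D
  fus2 : ∀ x ∈ Q₂, ∃ l : G, l * x * l⁻¹ ∈ D

namespace TEnd

variable {S : Sylow 2 G} {T B Q₁ Q₂ D C₁ C₂ : Subgroup G} {s : G} {q : ℕ}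
variable (h : TEnd S T B Q₁ Q₂ D C₁ C₂ s q)

include h

theorem BS : B ≤ (S : Subgroup G) := h.BT.trans h.TS

theorem mem_T_of {x : G} (hx : x ∈ (S : Subgroup G)) (hxB : x ∉ B) : s⁻¹ * x ∈ T :=
  (h.mem_S hx).resolve_left fun h1 => hxB (h.leB h1)

theorem coset {x y : G} (hx : x ∈ (S : Subgroup G)) (hxB : x ∉ B) (hy : y ∈ (S : Subgroup G)) (hyB : y ∉ B) :
    x⁻¹ * y ∈ B := by
  have h1 := h.mem_T_of hx hxB
  have h2 := h.mem_T_of hy hyB
  have h3 := h.leB (T.mul_mem (T.inv_mem h1) h2)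
  have e : (s⁻¹ * x)⁻¹ * (s⁻¹ * y) = x⁻¹ * y := by group
  rwa [e] at h3

theorem mem_NB {z g : G} (hz : Gd D C₁ C₂ z) (hg : Gd D C₁ C₂ (g * z * g⁻¹)) : g ∈ normalizer (B : Set G) :=
  Base.mem_NB h.go1 h.cent hz hg

omit [Finite G] h in
theorem hcx {x y : G} : y ∈ centralizer ({x} : Set G) ↔ x * y * x⁻¹ = y := by
  rw [mem_centralizer_singleton_iff, mul_inv_eq_iff_eq_mul]
  exact eq_comm

theorem cosetW {x : G} (hxS : x ∈ (S : Subgroup G)) (hxB : x ∉ B) :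
    ∀ y ∈ ((S : Subgroup G) ⊓ centralizer ({x} : Set G) : Subgroup G),
      y ∈ (B ⊓ centralizer ({x} : Set G) : Subgroup G) ∨
        x⁻¹ * y ∈ (B ⊓ centralizer ({x} : Set G) : Subgroup G) := by
  rintro y ⟨hyS, hyx⟩
  by_cases hyB : y ∈ B
  · exact Or.inl ⟨hyB, hyx⟩
  · right
    refine ⟨h.coset hxS hxB hyS hyB, (centralizer ({x} : Set G)).mul_mem
      ((centralizer ({x} : Set G)).inv_mem (hcx.2 (by group))) hyx⟩

/-- `N_G(C_S(x)) ≤ N_G(B)` for an involution `x ∈ S ∖ B`. -/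
theorem NW {x : G} (hxS : x ∈ (S : Subgroup G)) (hxB : x ∉ B) (hxx : x * x = 1) {n : G}
    (hn : ∀ w ∈ ((S : Subgroup G) ⊓ centralizer ({x} : Set G) : Subgroup G),
      n * w * n⁻¹ ∈ ((S : Subgroup G) ⊓ centralizer ({x} : Set G) : Subgroup G)) :
    n ∈ normalizer (B : Set G) := by
  have hsx : s⁻¹ * x ∈ T := h.mem_T_of hxS hxB
  have hBS := h.BS
  set U : Subgroup G := B ⊓ centralizer ({x} : Set G) with hU
  set W : Subgroup G := (S : Subgroup G) ⊓ centralizer ({x} : Set G) with hW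
  have hUW : U ≤ W := inf_le_inf_right _ hBS
  have hxW : x ∈ W := ⟨hxS, hcx.2 (by group)⟩
  have hcoset : ∀ y ∈ W, y ∈ U ∨ x⁻¹ * y ∈ U := h.cosetW hxS hxB
  have hxinv : x⁻¹ = x := inv_eq_of_mul_eq_one_right hxx
  by_cases hsq : ∃ u ∈ U, u * u ≠ 1
  · obtain ⟨u, hu, hu2⟩ := hsq
    have h1 := h.sq_good hu.1 hu2
    have hv := hn u (hUW hu)
    have hvv : n * u * n⁻¹ * (n * u * n⁻¹) = n * (u * u) * n⁻¹ := by group
    have hne : n * (u * u) * n⁻¹ ≠ 1 := by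
      intro h2
      apply hu2
      have h3 : u * u = n⁻¹ * (n * (u * u) * n⁻¹) * n := by group
      rw [h3, h2]; group
    apply h.mem_NB h1
    rw [← hvv] at hne ⊢
    rcases hcoset _ hv with h2 | h2
    · exact h.sq_good h2.1 hne
    · have h3 := hcx.1 h2.2
      have h4 : x⁻¹ * (n * u * n⁻¹) * (x⁻¹ * (n * u * n⁻¹)) = n * u * n⁻¹ * (n * u * n⁻¹) := by
        have h5 : x * (x⁻¹ * (n * u * n⁻¹)) = x⁻¹ * (n * u * n⁻¹) * x :=
          mul_inv_eq_iff_eq_mul.1 h3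
        calc x⁻¹ * (n * u * n⁻¹) * (x⁻¹ * (n * u * n⁻¹))
            = x⁻¹ * (n * u * n⁻¹) * x * (n * u * n⁻¹) := by rw [hxinv]; group
          _ = x * (x⁻¹ * (n * u * n⁻¹)) * (n * u * n⁻¹) := by rw [h5]
          _ = _ := by group
      rw [← h4] at hne ⊢
      exact h.sq_good h2.1 hne
  · push Not at hsq
    have hUD : U ≤ D := by
      intro u hu
      have hxu := hcx.1 hu.2
      rcases h.inv_mem_or hu.1 (hsq u hu) with h1 | h1
      · have h2 := h.swap1 hsx h1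
        rw [hxu] at h2
        exact (h.memD u).2 ⟨h1, h2⟩
      · have h2 := h.swap2 hsx h1
        rw [hxu] at h2
        exact (h.memD u).2 ⟨h2, h1⟩
    have hUeq : U = D ⊓ centralizer ({x} : Set G) :=
      le_antisymm (le_inf hUD inf_le_right) (inf_le_inf_right _ h.DB)
    rcases h.toBase.dich hxS hxx with h4 | hfr
    · -- `|U| ≥ 4`
      rw [← hUeq] at h4
      let Un : Subgroup G := U.map (MulAut.conj n).toMonoidHom
      have hUn : Nat.card Un = Nat.card U := card_map_conj U n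
      have hUnW : Un ≤ W := by
        rintro _ ⟨u, hu, rfl⟩
        exact hn u (hUW hu)
      have hle : Nat.card Un ≤ 2 * Nat.card (Un ⊓ U : Subgroup G) := by
        by_cases hsub : Un ≤ U
        · exact card_le_two_mul Un.one_mem (fun e he => Or.inl ⟨he, hsub he⟩)
        · obtain ⟨f, hf, hfU⟩ := Set.not_subset.1 hsub
          apply card_le_two_mul hf
          intro e he
          rcases hcoset e (hUnW he) with h5 | h5
          · exact Or.inl ⟨he, h5⟩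
          · right
            have h6 := (hcoset f (hUnW hf)).resolve_left hfU
            refine ⟨Un.mul_mem (Un.inv_mem hf) he, ?_⟩
            have h7 := U.mul_mem (U.inv_mem h6) h5
            have h8 : (x⁻¹ * f)⁻¹ * (x⁻¹ * e) = f⁻¹ * e := by group
            rwa [h8] at h7
      have h5 : 1 < Nat.card (Un ⊓ U : Subgroup G) := by omega
      rw [Subgroup.one_lt_card_iff_ne_bot] at h5
      obtain ⟨⟨d, hd⟩, hd1⟩ := Subgroup.ne_bot_iff_exists_ne_one.1 h5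
      have hd1' : d ≠ 1 := fun h6 => hd1 (Subtype.ext h6)
      have hdn : n⁻¹ * d * n ∈ U := mem_map_conj.1 hd.1
      have h6 : Gd D C₁ C₂ d := h.gd_of_swap hsx (hUD hd.2) hd1' (hcx.1 hd.2.2)
      have h7 : Gd D C₁ C₂ (n⁻¹ * d * n) := by
        apply h.gd_of_swap hsx (hUD hdn) _ (hcx.1 hdn.2)
        intro h8
        apply hd1'
        have h9 : d = n * (n⁻¹ * d * n) * n⁻¹ := by group
        rw [h9, h8]; group
      have h8 : n⁻¹ ∈ normalizer (B : Set G) := by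
        apply h.mem_NB h6
        rw [inv_inv]; exact h7
      have h9 := (normalizer (B : Set G)).inv_mem h8
      rwa [inv_inv] at h9
    · -- `x` acts freely on `D`
      exfalso
      obtain ⟨a, ha, haD⟩ := h.exists_a
      have ha' := h.swap1 hsx ha
      set a' := x * a * x⁻¹ with ha'def
      have hxa' : x * a' * x⁻¹ = a := by
        calc x * a' * x⁻¹ = x * x * a * (x * x)⁻¹ := by rw [ha'def]; group
          _ = a := by rw [hxx]; group
      have hbB : a * a' ∈ B := B.mul_mem (h.Q1B ha) (h.Q2B ha')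
      have hxb : x * (a * a') * x⁻¹ = a' * a := by
        calc x * (a * a') * x⁻¹ = (x * a * x⁻¹) * (x * a' * x⁻¹) := by group
          _ = a' * a := by rw [hxa']
      set d := (a * a')⁻¹ * (a' * a) with hddef
      have hdD : d ∈ D := by
        have h1 := h.commB (B.inv_mem (h.Q2B ha')) (B.inv_mem (h.Q1B ha))
        have h2 : a'⁻¹ * a⁻¹ * a'⁻¹⁻¹ * a⁻¹⁻¹ = d := by rw [hddef]; group
        rwa [h2] at h1
      have hxb' : x * (a * a') * x⁻¹ = a * a' * d := by rw [hxb, hddef]; group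
      have hxd : x * d * x⁻¹ = d := by
        have h1 : x * (x * (a * a') * x⁻¹) * x⁻¹ = a * a' := by
          calc x * (x * (a * a') * x⁻¹) * x⁻¹ = x * x * (a * a') * (x * x)⁻¹ := by group
            _ = a * a' := by rw [hxx]; group
        rw [hxb'] at h1
        have h2 : a * a' * d * (x * d * x⁻¹) = a * a' := by
          calc a * a' * d * (x * d * x⁻¹) = x * (a * a') * x⁻¹ * (x * d * x⁻¹) := by rw [hxb']
            _ = x * (a * a' * d) * x⁻¹ := by group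
            _ = a * a' := h1
        have h3 : d * (x * d * x⁻¹) = 1 := by
          have h4 : a * a' * (d * (x * d * x⁻¹)) = a * a' := by rw [← mul_assoc]; exact h2
          exact mul_eq_left.1 h4
        have h5 : x * d * x⁻¹ = d⁻¹ := by
          rw [mul_eq_one_iff_inv_eq] at h3; exact h3.symm
        rw [h5, h.inv1 (h.D1 hdD)]
      obtain ⟨u, hu, hu2⟩ := hfr d hdD (by rw [hxd, inv_mul_cancel]; exact one_mem _)
      rw [mem_bot, inv_mul_eq_one] at hu2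
      have hxu : x * u * x⁻¹ ∈ D := h.P_D hxS hu
      have hbu : a * a' * u ∈ U := by
        refine ⟨B.mul_mem hbB (h.DB hu), hcx.2 ?_⟩
        calc x * (a * a' * u) * x⁻¹ = x * (a * a') * x⁻¹ * (x * u * x⁻¹) := by group
          _ = a * a' * d * (x * u * x⁻¹) := by rw [hxb']
          _ = a * a' * u * ((x * u * x⁻¹) * (x * u * x⁻¹)) := by rw [hu2]; group
          _ = a * a' * u := by rw [h.sqD hxu, mul_one]
      have h1 := D.mul_mem (hUD hbu) (D.inv_mem hu)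
      rw [mul_inv_cancel_right] at h1
      have h2 := Q₂.mul_mem (h.D2 h1) (Q₂.inv_mem ha')
      rw [mul_inv_cancel_right] at h2
      exact haD ((h.memD a).2 ⟨ha, h2⟩)

/-- `C_S(x)` is a maximal 2-subgroup of `C_G(x)` for an involution `x ∈ S ∖ B`. -/
theorem Wmax {x : G} (hxS : x ∈ (S : Subgroup G)) (hxB : x ∉ B) (hxx : x * x = 1) {P : Subgroup G}
    (hP : IsPGroup 2 P) (hWP : ((S : Subgroup G) ⊓ centralizer ({x} : Set G) : Subgroup G) ≤ P)
    (hPC : P ≤ centralizer ({x} : Set G)) :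
    P = ((S : Subgroup G) ⊓ centralizer ({x} : Set G) : Subgroup G) := by
  have hsx : s⁻¹ * x ∈ T := h.mem_T_of hxS hxB
  have hBS := h.BS
  set W : Subgroup G := (S : Subgroup G) ⊓ centralizer ({x} : Set G) with hW
  have hxW : x ∈ W := ⟨hxS, hcx.2 (by group)⟩
  by_contra hne
  have hlt : W < P := lt_of_le_of_ne hWP (Ne.symm hne)
  obtain ⟨y, ⟨hyP, hyN⟩, hyW⟩ := Set.exists_of_ssubset (lt_inf_normalizer hP hlt)
  have hle : P ⊓ normalizer (W : Set G) ≤ normalizer (B : Set G) := by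
    rintro n ⟨-, hn⟩
    exact h.NW hxS hxB hxx (fun w hw => (mem_normalizer_iff.1 hn w).1 hw)
  have h1 : IsPGroup 2 (B ⊔ (P ⊓ normalizer (W : Set G)) : Subgroup G) :=
    IsPGroup.to_sup_of_normal_left' (h.two.to_le hBS) (hP.to_le inf_le_left) hle
  have h2 : (S : Subgroup G) ≤ B ⊔ (P ⊓ normalizer (W : Set G)) := by
    intro w hw
    have hxP : x ∈ B ⊔ (P ⊓ normalizer (W : Set G)) :=
      (le_sup_right : P ⊓ normalizer (W : Set G) ≤ _) ⟨hWP hxW, le_normalizer hxW⟩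
    by_cases hwB : w ∈ B
    · exact (le_sup_left : B ≤ _) hwB
    · have h4 : x⁻¹ * w ∈ B := h.coset hxS hxB hw hwB
      have h5 := (B ⊔ (P ⊓ normalizer (W : Set G))).mul_mem hxP ((le_sup_left : B ≤ _) h4)
      rwa [mul_inv_cancel_left] at h5
  have h3 := S.is_maximal' h1 h2
  have hyS : y ∈ (S : Subgroup G) := by
    rw [← h3]
    exact (le_sup_right : P ⊓ normalizer (W : Set G) ≤ _) ⟨hyP, hyN⟩
  exact hyW ⟨hyS, hPC hyP⟩

/-- an involution of `S ∖ B` is not conjugate into `B` -/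
theorem no_conj {x : G} (hxS : x ∈ (S : Subgroup G)) (hxB : x ∉ B) (hxx : x * x = 1) (g : G) :
    g * x * g⁻¹ ∉ B := by
  intro hg
  have hsx : s⁻¹ * x ∈ T := h.mem_T_of hxS hxB
  have hBS := h.BS
  set U : Subgroup G := B ⊓ centralizer ({x} : Set G) with hU
  set W : Subgroup G := (S : Subgroup G) ⊓ centralizer ({x} : Set G) with hW
  have hxW : x ∈ W := ⟨hxS, hcx.2 (by group)⟩
  have hcoset : ∀ y ∈ W, y ∈ U ∨ x⁻¹ * y ∈ U := h.cosetW hxS hxB
  have hW2 : IsPGroup 2 W := h.two.to_le inf_le_left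
  have hb2 : g * x * g⁻¹ * (g * x * g⁻¹) = 1 := by
    calc g * x * g⁻¹ * (g * x * g⁻¹) = g * (x * x) * g⁻¹ := by group
      _ = 1 := by rw [hxx]; group
  obtain ⟨k, hk⟩ : ∃ k : G, k * x * k⁻¹ ∈ D := by
    rcases h.inv_mem_or hg hb2 with h1 | h1
    · obtain ⟨l, hl⟩ := h.fus1 _ h1
      refine ⟨l * g, ?_⟩
      have h2 : l * (g * x * g⁻¹) * l⁻¹ = l * g * x * (l * g)⁻¹ := by group
      rwa [h2] at hl
    · obtain ⟨l, hl⟩ := h.fus2 _ h1
      refine ⟨l * g, ?_⟩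
      have h2 : l * (g * x * g⁻¹) * l⁻¹ = l * g * x * (l * g)⁻¹ := by group
      rwa [h2] at hl
  have hkB : B.map (MulAut.conj k⁻¹).toMonoidHom ≤ centralizer ({x} : Set G) := by
    rintro _ ⟨b, hb, rfl⟩
    rw [hcx]
    have h1 := h.centD hk hb
    show x * (k⁻¹ * b * k⁻¹⁻¹) * x⁻¹ = k⁻¹ * b * k⁻¹⁻¹
    calc x * (k⁻¹ * b * k⁻¹⁻¹) * x⁻¹ = k⁻¹ * ((k * x * k⁻¹) * b) * (k * x * k⁻¹)⁻¹ * k := by group
      _ = k⁻¹ * b * k⁻¹⁻¹ := by rw [h1]; group
  obtain ⟨R, hWR, hRC, hR2, hRi⟩ := exists_sylow_in (p := 2) (N := centralizer ({x} : Set G)) (D := W)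
    inf_le_right hW2
  have hRW : R = W := h.Wmax hxS hxB hxx hR2 hWR hRC
  rw [hRW] at hRi
  obtain ⟨n, -, hn⟩ := exists_conj_le_in hW2 hRi hkB ((h.two.to_le hBS).map _)
  have h1 : Nat.card B ≤ Nat.card W := by
    have h2 := Subgroup.card_le_of_le hn
    rwa [card_map_conj, card_map_conj] at h2
  have h2 : Nat.card W ≤ 2 * Nat.card U := card_le_two_mul hxW hcoset
  have h3 := h.card_delta hsx (E := U) inf_le_left (fun e he => by
    rw [hcx.1 he.2, mul_inv_cancel]; exact one_mem _)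
  rw [h.card1] at h3
  have h4 : 0 < Nat.card D := Nat.card_pos
  have h5 : 0 < Nat.card U := Nat.card_pos
  have h6 : Nat.card U * q ≤ Nat.card B := by
    apply Nat.le_of_mul_le_mul_right _ h4
    rw [mul_assoc]; exact h3
  have h7 := h.hq
  have h8 : Nat.card U * 4 ≤ Nat.card U * q := Nat.mul_le_mul_left _ h7
  omega

/-! ### The centralizers of the involutions of `S ∖ B` -/

theorem sylW {x : G} (hxS : x ∈ (S : Subgroup G)) (hxB : x ∉ B) (hxx : x * x = 1) :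
    Syl ((S : Subgroup G) ⊓ centralizer ({x} : Set G)) (centralizer ({x} : Set G)) :=
  ⟨inf_le_right, h.two.to_le inf_le_left, fun _ hPC hP hWP => h.Wmax hxS hxB hxx hP hWP hPC⟩

omit h in
theorem exists_invol {X : Subgroup G} (hX : IsPGroup 2 X) (hne : X ≠ ⊥) : ∃ x ∈ X, x ≠ 1 ∧ x * x = 1 := by
  have hp : Fact (Nat.Prime 2) := ⟨Nat.prime_two⟩
  obtain ⟨⟨y, hy⟩, hy1⟩ := Subgroup.ne_bot_iff_exists_ne_one.1 hne
  have hy1' : y ≠ 1 := fun h6 => hy1 (Subtype.ext h6)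
  obtain ⟨x, hx, hx1, hx2, -⟩ := Cfsg.Agent.H282.PU.exists_inv' hX (fun _ => True) (fun _ _ => trivial) hy hy1' trivial
  exact ⟨x, hx, hx1, by rw [← pow_two]; exact hx2⟩

/-- **(C)** `C_G(x) ≤ N_G(B)` for an involution `x ∈ S ∖ B`. -/
theorem cent_swap {x : G} (hxS : x ∈ (S : Subgroup G)) (hxB : x ∉ B) (hxx : x * x = 1) :
    centralizer ({x} : Set G) ≤ normalizer (B : Set G) := by
  have hsx : s⁻¹ * x ∈ T := h.mem_T_of hxS hxB
  have hx1 : x ≠ 1 := fun h1 => hxB (h1 ▸ one_mem _)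
  set C : Subgroup G := centralizer ({x} : Set G) with hC
  set R : Subgroup G := o2 C with hR
  have hR2 : IsPGroup 2 R := ChoiceSit.isPGroup_o2 _
  have hRn : C ≤ normalizer (R : Set G) := ChoiceSit.le_normalizer_o2 _
  have hRW : R ≤ (S : Subgroup G) ⊓ C := ChoiceSit.o2_le_syl (h.sylW hxS hxB hxx)
  have hxC : x ∈ C := hcx.2 (by group)
  have hxR : x ∈ R := by
    have h1 : zpowers x ≤ o2 C := by
      refine ChoiceSit.le_o2 (Cfsg.Agent.MinSimple.Basic.isPGroup_zpowers (by rw [pow_two]; exact hxx))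
        (zpowers_le.2 hxC) ?_
      intro c hc
      refine mem_normalizer_of fun y hy => ?_
      obtain ⟨k, rfl⟩ := mem_zpowers_iff.1 hy
      have h2 : c * x * c⁻¹ = x := by
        have h3 := hcx.1 hc
        have h4 : x * c = c * x := by rw [← mul_inv_eq_iff_eq_mul]; exact h3
        rw [← h4]; group
      have h3 : c * x ^ k * c⁻¹ = (c * x * c⁻¹) ^ k := by rw [conj_zpow]
      rw [h3, h2]
      exact zpow_mem (mem_zpowers x) k
    exact h1 (mem_zpowers x)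
  -- an element of `D` centralised by `x`
  obtain ⟨u, huD, hu1, hxu⟩ : ∃ u ∈ D, u ≠ 1 ∧ x * u * x⁻¹ = u := by
    have h1 := h.one_lt_D
    rw [Subgroup.one_lt_card_iff_ne_bot] at h1
    obtain ⟨⟨d, hd⟩, hd1⟩ := Subgroup.ne_bot_iff_exists_ne_one.1 h1
    have hd1' : d ≠ 1 := fun h6 => hd1 (Subtype.ext h6)
    by_cases hxd : x * d * x⁻¹ = d
    · exact ⟨d, hd, hd1', hxd⟩
    · have h2 : x * d * x⁻¹ ∈ D := h.P_D hxS hd
      refine ⟨d * (x * d * x⁻¹), D.mul_mem hd h2, ?_, ?_⟩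
      · intro h3
        apply hxd
        rw [eq_comm, ← inv_inj, h.inv1 (h.D1 hd)]
        exact (eq_inv_of_mul_eq_one_left h3)
      · have h3 : x * (x * d * x⁻¹) * x⁻¹ = d := by
          calc x * (x * d * x⁻¹) * x⁻¹ = x * x * d * (x * x)⁻¹ := by group
            _ = d := by rw [hxx]; group
        calc x * (d * (x * d * x⁻¹)) * x⁻¹ = (x * d * x⁻¹) * (x * (x * d * x⁻¹) * x⁻¹) := by group
          _ = (x * d * x⁻¹) * d := by rw [h3]
          _ = d * (x * d * x⁻¹) := h.c1 _ (h.D1 h2) _ (h.D1 hd)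
  have hchar : C ⊓ centralizer (R : Set G) ≤ R :=
    MinSimple.Basic.char2_centralizer h.c2t (by rw [pow_two]; exact hxx) hx1
  have hRB : R ⊓ B ≠ ⊥ := by
    intro hbot
    have h1 : ∀ r ∈ R, r = 1 ∨ r = x := by
      intro r hr
      rcases h.cosetW hxS hxB r (hRW hr) with h2 | h2
      · left
        have h3 : r ∈ R ⊓ B := ⟨hr, h2.1⟩
        rwa [hbot, mem_bot] at h3
      · right
        have h3 : x⁻¹ * r ∈ R ⊓ B := ⟨R.mul_mem (R.inv_mem hxR) hr, h2.1⟩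
        rw [hbot, mem_bot, inv_mul_eq_one] at h3
        exact h3.symm
    have h2 : u ∈ R := by
      apply hchar
      refine ⟨hcx.2 hxu, mem_centralizer_iff.2 fun r hr => ?_⟩
      rcases h1 r hr with rfl | rfl
      · rw [one_mul, mul_one]
      · exact mul_inv_eq_iff_eq_mul.1 hxu
    have h3 : u ∈ R ⊓ B := ⟨h2, h.DB huD⟩
    rw [hbot, mem_bot] at h3
    exact hu1 h3
  obtain ⟨r, ⟨hrR, hrB⟩, hr1, hr2⟩ := exists_invol (hR2.to_le inf_le_left) hRB
  have hxr : x * r * x⁻¹ = r := hcx.1 (hRW hrR).2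
  have hgr : Gd D C₁ C₂ r := h.inv_good hsx hrB hr2 hr1 hxr
  intro c hc
  have hcr : c * r * c⁻¹ ∈ R := (mem_normalizer_iff.1 (hRn hc) r).1 hrR
  have hcr2 : c * r * c⁻¹ * (c * r * c⁻¹) = 1 := by
    calc c * r * c⁻¹ * (c * r * c⁻¹) = c * (r * r) * c⁻¹ := by group
      _ = 1 := by rw [hr2]; group
  have hcr1 : c * r * c⁻¹ ≠ 1 := by
    intro h1
    apply hr1
    have h2 : r = c⁻¹ * (c * r * c⁻¹) * c := by group
    rw [h2, h1]; group
  have hcrB : c * r * c⁻¹ ∈ B := by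
    by_contra hnB
    apply h.no_conj (hRW hcr).1 hnB hcr2 c⁻¹
    have h2 : c⁻¹ * (c * r * c⁻¹) * c⁻¹⁻¹ = r := by group
    rw [h2]; exact hrB
  exact h.mem_NB hgr (h.inv_good hsx hcrB hcr2 hcr1 (hcx.1 (hRW hcr).2))

omit h in
/-- two involutions are conjugate or commute with a third -/
theorem _root_.Cfsg.Agent.H282.PU.dihedral {x t : G} (hx : x * x = 1) (ht : t * t = 1) :
    (∃ g : G, g * x * g⁻¹ = t) ∨ ∃ z : G, z ≠ 1 ∧ z * z = 1 ∧ x * z = z * x ∧ t * z = z * t := by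
  have hxi : x⁻¹ = x := inv_eq_of_mul_eq_one_right hx
  have hti : t⁻¹ = t := inv_eq_of_mul_eq_one_right ht
  set y := x * t with hy
  have hyi : x * y * x⁻¹ = y⁻¹ := by rw [hy, mul_inv_rev, hxi, hti]; simp [← mul_assoc, hx]
  have hpow : ∀ n : ℕ, x * y ^ n * x⁻¹ = (y ^ n)⁻¹ := by
    intro n
    rw [← conj_pow, hyi, inv_pow]
  rcases Nat.even_or_odd' (orderOf y) with ⟨m, hm | hm⟩
  · right
    have hm0 : 0 < m := by
      have := orderOf_pos y
      omega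
    refine ⟨y ^ m, ?_, ?_, ?_, ?_⟩
    · intro h1
      have h2 := orderOf_dvd_of_pow_eq_one h1
      have h3 := Nat.le_of_dvd hm0 h2
      omega
    · rw [← pow_add, ← two_mul, ← hm, pow_orderOf_eq_one]
    · have h2 : (y ^ m)⁻¹ = y ^ m := by
        rw [inv_eq_iff_mul_eq_one, ← pow_add, ← two_mul, ← hm, pow_orderOf_eq_one]
      have h3 := hpow m
      rw [h2, mul_inv_eq_iff_eq_mul] at h3
      exact h3
    · have h2 : (y ^ m)⁻¹ = y ^ m := by
        rw [inv_eq_iff_mul_eq_one, ← pow_add, ← two_mul, ← hm, pow_orderOf_eq_one]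
      have h3 := hpow m
      rw [h2, mul_inv_eq_iff_eq_mul] at h3
      have h4 : t = x⁻¹ * y := by rw [hy]; group
      have h5 : y * y ^ m = y ^ m * y := (Commute.self_pow y m).eq
      calc t * y ^ m = x⁻¹ * (y * y ^ m) := by rw [h4, mul_assoc]
        _ = x⁻¹ * (y ^ m * x) * t := by rw [h5, hy]; group
        _ = x⁻¹ * (x * y ^ m) * t := by rw [h3]
        _ = y ^ m * t := by group
  · left
    refine ⟨y ^ m, ?_⟩
    have h1 : y ^ (2 * m + 1) = 1 := by rw [← hm, pow_orderOf_eq_one]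
    have h3 : x * y ^ m = (y ^ m)⁻¹ * x := mul_inv_eq_iff_eq_mul.1 (hpow m)
    have h4 : x * (y ^ m)⁻¹ = y ^ m * x := by
      calc x * (y ^ m)⁻¹ = y ^ m * ((y ^ m)⁻¹ * x) * (y ^ m)⁻¹ := by group
        _ = y ^ m * (x * y ^ m) * (y ^ m)⁻¹ := by rw [h3]
        _ = y ^ m * x := by group
    calc y ^ m * x * (y ^ m)⁻¹ = y ^ m * (x * (y ^ m)⁻¹) := by group
      _ = y ^ m * y ^ m * x := by rw [h4]; group
      _ = y⁻¹ * y ^ (2 * m + 1) * x := by
          rw [pow_succ, two_mul, pow_add]; group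
      _ = y⁻¹ * x := by rw [h1, mul_one]
      _ = t := by rw [hy, mul_inv_rev, hti]; group

/-- **(D)** conjugates of a good element lie in `N_G(B)`. -/
theorem conj_mem {x : G} (hxS : x ∈ (S : Subgroup G)) (hxB : x ∉ B) (hxx : x * x = 1) {t : G}
    (ht : Gd D C₁ C₂ t) (g : G) : g * t * g⁻¹ ∈ normalizer (B : Set G) := by
  have hsx : s⁻¹ * x ∈ T := h.mem_T_of hxS hxB
  have htt : t * t = 1 := h.sqD ht.1
  have ht2 : g * t * g⁻¹ * (g * t * g⁻¹) = 1 := by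
    calc g * t * g⁻¹ * (g * t * g⁻¹) = g * (t * t) * g⁻¹ := by group
      _ = 1 := by rw [htt]; group
  rcases dihedral hxx ht2 with ⟨k, hk⟩ | ⟨z, hz1, hz2, hxz, htz⟩
  · exfalso
    apply h.no_conj hxS hxB hxx (g⁻¹ * k)
    have h1 : g⁻¹ * k * x * (g⁻¹ * k)⁻¹ = g⁻¹ * (k * x * k⁻¹) * g := by group
    rw [h1, hk]
    have h2 : g⁻¹ * (g * t * g⁻¹) * g = t := by group
    rw [h2]; exact h.DB ht.1
  · have hzC : zpowers z ≤ centralizer ({x} : Set G) := by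
      rw [zpowers_le, mem_centralizer_singleton_iff]; exact hxz.symm
    obtain ⟨P, hP, hzP⟩ := exists_syl (Cfsg.Agent.MinSimple.Basic.isPGroup_zpowers
      (by rw [pow_two]; exact hz2)) hzC
    obtain ⟨c, hc, hcP⟩ := syl_conj hP (h.sylW hxS hxB hxx)
    have hcz : c * z * c⁻¹ ∈ ((S : Subgroup G) ⊓ centralizer ({x} : Set G) : Subgroup G) := by
      rw [← hcP]
      exact ⟨z, hzP (mem_zpowers z), rfl⟩
    have hcN := h.cent_swap hxS hxB hxx hc
    have hcz2 : c * z * c⁻¹ * (c * z * c⁻¹) = 1 := by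
      calc c * z * c⁻¹ * (c * z * c⁻¹) = c * (z * z) * c⁻¹ := by group
        _ = 1 := by rw [hz2]; group
    have hcz1 : c * z * c⁻¹ ≠ 1 := by
      intro h1
      apply hz1
      have h2 : z = c⁻¹ * (c * z * c⁻¹) * c := by group
      rw [h2, h1]; group
    have hcent : centralizer ({c * z * c⁻¹} : Set G) ≤ normalizer (B : Set G) := by
      by_cases hzB : c * z * c⁻¹ ∈ B
      · exact h.cent _ (h.inv_good hsx hzB hcz2 hcz1 (hcx.1 hcz.2))
      · exact h.cent_swap hcz.1 hzB hcz2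
    have h1 : c * (g * t * g⁻¹) * c⁻¹ ∈ centralizer ({c * z * c⁻¹} : Set G) := by
      rw [mem_centralizer_singleton_iff]
      calc c * (g * t * g⁻¹) * c⁻¹ * (c * z * c⁻¹) = c * ((g * t * g⁻¹) * z) * c⁻¹ := by group
        _ = c * (z * (g * t * g⁻¹)) * c⁻¹ := by rw [htz]
        _ = c * z * c⁻¹ * (c * (g * t * g⁻¹) * c⁻¹) := by group
    have h2 := mul_mem (mul_mem (inv_mem hcN) (hcent h1)) hcN
    have h3 : c⁻¹ * (c * (g * t * g⁻¹) * c⁻¹) * c = g * t * g⁻¹ := by group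
    rwa [h3] at h2

/-! ### An involution in `S ∖ B` -/

theorem sB {b : G} (hb : b ∈ B) : s * b * s⁻¹ ∈ B := h.S_B h.sS hb

theorem SN : (S : Subgroup G) ≤ normalizer (B : Set G) := fun x hx =>
  mem_normalizer_of fun b hb => h.S_B hx hb

theorem swapC1 {x e : G} (hx : s⁻¹ * x ∈ T) (he : e ∈ C₁) : x * e * x⁻¹ ∈ C₂ := by
  have h1 := h.sC1 _ (h.TC1 _ hx e he)
  have h2 : s * (s⁻¹ * x * e * (s⁻¹ * x)⁻¹) * s⁻¹ = x * e * x⁻¹ := by group
  rwa [h2] at h1

theorem swapC2 {x e : G} (hx : s⁻¹ * x ∈ T) (he : e ∈ C₂) : x * e * x⁻¹ ∈ C₁ := by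
  have h1 := h.sC2 _ (h.TC2 _ hx e he)
  have h2 : s * (s⁻¹ * x * e * (s⁻¹ * x)⁻¹) * s⁻¹ = x * e * x⁻¹ := by group
  rwa [h2] at h1

theorem exists_three : ∃ x y : G, Gd D C₁ C₂ x ∧ Gd D C₁ C₂ y ∧ Gd D C₁ C₂ (x⁻¹ * y) := by
  obtain ⟨a, ha, haD⟩ := h.exists_a
  obtain ⟨b, hb, hbD⟩ := h.exists_b
  obtain ⟨c, hc, hcD, hbc⟩ : ∃ c ∈ Q₂, c ∉ D ∧ b⁻¹ * c ∉ D := by
    by_contra hcon
    push Not at hcon
    have h1 : Nat.card Q₂ ≤ 2 * Nat.card D := by
      apply card_le_two_mul hb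
      intro e he
      by_cases heD : e ∈ D
      · exact Or.inl heD
      · exact Or.inr (hcon e he heD)
    have h2 := h.card2
    have h3 := h.hq
    have h4 : 0 < Nat.card D := Nat.card_pos
    rw [h2] at h1
    nlinarith
  have hb1 := h.good a ha haD b hb hbD
  have hc1 := h.good a ha haD c hc hcD
  have hbc1 := h.good a ha haD _ (Q₂.mul_mem (Q₂.inv_mem hb) hc) hbc
  refine ⟨_, _, hb1, hc1, ?_⟩
  have h2 : a * (b⁻¹ * c) * a⁻¹ * (b⁻¹ * c)⁻¹ =
      b⁻¹ * ((a * b * a⁻¹ * b⁻¹)⁻¹ * (a * c * a⁻¹ * c⁻¹)) * b := by group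
  have h3 : (a * b * a⁻¹ * b⁻¹)⁻¹ * (a * c * a⁻¹ * c⁻¹) ∈ D := D.mul_mem (D.inv_mem hb1.1) hc1.1
  have h4 := h.centD h3 (h.Q2B hb)
  rw [h2, mul_assoc, h4, inv_mul_cancel_left] at hbc1
  exact hbc1

/-- elements of `N_G(B)` fix or swap `Q₁`, `Q₂` -/
theorem NB_or {y : G} (hy : y ∈ normalizer (B : Set G)) :
    y ∈ normalizer (Q₁ : Set G) ∨ s⁻¹ * y ∈ normalizer (Q₁ : Set G) := by
  have h1 : cj y Q₁ = Q₁ ∨ cj y Q₁ = Q₂ := by
    apply h.eq_of_elem
    · rintro _ ⟨b, hb, rfl⟩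
      exact h.BS ((mem_normalizer_iff.1 hy b).1 (h.Q1B hb))
    · rintro _ ⟨b, hb, rfl⟩
      rw [← map_mul, h.sq1 b hb, map_one]
    · rw [card_cj]
  rcases h1 with h1 | h1
  · left
    exact mem_normalizer_iff_cj.2 h1
  · right
    refine mem_normalizer_of fun a ha => ?_
    have h2 : y * a * y⁻¹ ∈ Q₂ := by rw [← h1]; exact ⟨a, ha, rfl⟩
    have h3 := h.s1' h2
    have h4 : s⁻¹ * (y * a * y⁻¹) * s = s⁻¹ * y * a * (s⁻¹ * y)⁻¹ := by group
    rwa [h4] at h3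

/-- the subgroup of index 2 of `N_G(B)` -/
def WW (h : TEnd S T B Q₁ Q₂ D C₁ C₂ s q) : Subgroup G := normalizer (B : Set G) ⊓ normalizer (Q₁ : Set G)

theorem WW_Q2 {w : G} (hw : w ∈ h.WW) : w ∈ normalizer (Q₂ : Set G) :=
  mem_normalizer_of (Cfsg.Agent.Omega.SQ1.CoOf.norm_Q2 h.toBase
    (fun b hb => (mem_normalizer_iff.1 hw.1 b).1 hb) (fun b hb => (mem_normalizer_iff.1 hw.2 b).1 hb))

theorem mem_WW {w : G} (h1 : w ∈ normalizer (B : Set G)) (h2 : w ∈ normalizer (Q₂ : Set G)) : w ∈ h.WW :=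
  ⟨h1, mem_normalizer_of (Cfsg.Agent.Omega.SQ1.CoOf.norm_Q2 h.symm
    (fun b hb => (mem_normalizer_iff.1 h1 b).1 hb) (fun b hb => (mem_normalizer_iff.1 h2 b).1 hb))⟩

theorem sNB : s ∈ normalizer (B : Set G) := h.SN h.sS

theorem WW_s {w : G} (hw : w ∈ h.WW) : s * w * s⁻¹ ∈ h.WW := by
  apply h.mem_WW (mul_mem (mul_mem h.sNB hw.1) (inv_mem h.sNB))
  refine mem_normalizer_of fun b hb => ?_
  have h1 := h.s1 _ ((mem_normalizer_iff.1 hw.2 _).1 (h.s1' hb))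
  have h2 : s * (w * (s⁻¹ * b * s) * w⁻¹) * s⁻¹ = s * w * s⁻¹ * b * (s * w * s⁻¹)⁻¹ := by group
  rwa [h2] at h1

theorem WW_conj {y w : G} (hy : y ∈ normalizer (B : Set G)) (hw : w ∈ h.WW) : y * w * y⁻¹ ∈ h.WW := by
  rcases h.NB_or hy with h1 | h1
  · have h2 : y ∈ h.WW := ⟨hy, h1⟩
    exact mul_mem (mul_mem h2 hw) (inv_mem h2)
  · have h2 : s⁻¹ * y ∈ h.WW :=
      ⟨(normalizer (B : Set G)).mul_mem ((normalizer (B : Set G)).inv_mem h.sNB) hy, h1⟩
    have h3 := h.WW_s (h.WW.mul_mem (h.WW.mul_mem h2 hw) (h.WW.inv_mem h2))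
    have h4 : s * (s⁻¹ * y * w * (s⁻¹ * y)⁻¹) * s⁻¹ = y * w * y⁻¹ := by group
    rwa [h4] at h3

theorem B_WW : B ≤ h.WW := fun b hb =>
  ⟨le_normalizer hb, mem_normalizer_of fun a ha => h.conjQ1 hb ha⟩

theorem sylB : Syl B h.WW := by
  refine ⟨h.B_WW, h.two.to_le h.BS, fun P hPW hP hBP => ?_⟩
  obtain ⟨R, hR, hPR⟩ := exists_syl hP (hPW.trans inf_le_left)
  obtain ⟨y, hy, hyR⟩ := syl_conj hR (⟨h.SN, S.isPGroup', fun Q _ hQ2 hQ => S.is_maximal' hQ2 hQ⟩ :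
    Syl (S : Subgroup G) (normalizer (B : Set G)))
  have h1 : cj y P ≤ B := by
    rintro _ ⟨p, hp, rfl⟩
    have h2 : y * p * y⁻¹ ∈ (S : Subgroup G) := by
      rw [← hyR]; exact ⟨p, hPR hp, rfl⟩
    have h3 := h.WW_conj hy (hPW hp)
    exact h.leB (h.memT _ h2 fun a ha => (mem_normalizer_iff.1 h3.2 a).1 ha)
  have h2 := Subgroup.card_le_of_le h1
  rw [card_cj] at h2
  exact (Subgroup.eq_of_le_of_card_ge hBP h2).symm

theorem WWn : h.WW ≤ normalizer (B : Set G) := inf_le_left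

/-- complements of `B` in `N_G(B) ∩ N_G(Q₁)` -/
structure Cm (h : TEnd S T B Q₁ Q₂ D C₁ C₂ s q) (A : Subgroup G) : Prop where
  le : A ≤ h.WW
  card : Nat.card A = B.relIndex h.WW
  gen : ∀ w ∈ h.WW, ∃ b ∈ B, ∃ a ∈ A, w = b * a

theorem exists_Cm : ∃ A : Subgroup G, h.Cm A := by
  have hp : Fact (Nat.Prime 2) := ⟨Nat.prime_two⟩
  have hBW := h.B_WW
  have hN : (B.subgroupOf h.WW).Normal := by
    rw [normal_subgroupOf_iff_le_normalizer hBW]; exact h.WWn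
  have hcB : Nat.card (B.subgroupOf h.WW) = Nat.card B :=
    Nat.card_congr (Subgroup.subgroupOfEquivOfLe hBW).toEquiv
  have hcop : (Nat.card (B.subgroupOf h.WW)).Coprime (B.subgroupOf h.WW).index := by
    obtain ⟨n, hn⟩ := IsPGroup.iff_card.1 (h.two.to_le h.BS)
    rw [hcB, hn]
    apply Nat.Coprime.pow_left
    rw [Nat.prime_two.coprime_iff_not_dvd]
    exact syl_not_dvd h.sylB
  obtain ⟨L, hL⟩ := Subgroup.exists_right_complement'_of_coprime hcop
  refine ⟨L.map h.WW.subtype, ⟨Subgroup.map_subtype_le _, ?_, ?_⟩⟩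
  · have h1 := hL.card_mul_card
    have h2 : Nat.card (L.map h.WW.subtype) = Nat.card L :=
      Subgroup.card_map_of_injective h.WW.subtype_injective
    rw [h2]
    have h3 := (B.subgroupOf h.WW).card_mul_index
    rw [← h1] at h3
    exact (Nat.eq_of_mul_eq_mul_left Nat.card_pos h3).symm
  · intro w hw
    have h1 : (⟨w, hw⟩ : h.WW) ∈ ((B.subgroupOf h.WW : Set h.WW) * (L : Set h.WW)) := by
      rw [hL.mul_eq]; trivial
    obtain ⟨b, hb, a, ha, hab⟩ := h1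
    exact ⟨b, hb, a, ⟨a, ha, rfl⟩, (congrArg Subtype.val hab).symm⟩

namespace Cm

variable {h}
variable {A : Subgroup G} (k : h.Cm A)

include k

theorem odd : ¬ 2 ∣ Nat.card A := by
  rw [k.card]; exact syl_not_dvd h.sylB

theorem inf : A ⊓ B = ⊥ := by
  have hp : Fact (Nat.Prime 2) := ⟨Nat.prime_two⟩
  rw [eq_bot_iff]
  intro x hx
  rw [mem_bot]
  obtain ⟨n, hn⟩ := IsPGroup.iff_card.1 ((h.two.to_le h.BS).to_le (inf_le_right : A ⊓ B ≤ B))
  have h1 : Nat.card (A ⊓ B : Subgroup G) ∣ Nat.card A := Subgroup.card_dvd_of_le inf_le_left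
  rcases Nat.eq_zero_or_pos n with rfl | hn0
  · rw [pow_zero] at hn
    have h2 : (A ⊓ B : Subgroup G) = ⊥ := Subgroup.eq_bot_of_card_eq _ hn
    rw [h2] at hx
    exact mem_bot.1 hx
  · exfalso
    apply k.odd
    refine dvd_trans ?_ h1
    rw [hn]
    exact dvd_pow_self 2 hn0.ne'

/-- an element of `B` normalising `A` centralises `A` -/
theorem comm {b a : G} (hb : b ∈ B) (hbA : b * a * b⁻¹ ∈ A) (ha : a ∈ A) : b * a = a * b := by
  have h1 : b * a * b⁻¹ * a⁻¹ ∈ A ⊓ B := by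
    refine ⟨A.mul_mem hbA (A.inv_mem ha), ?_⟩
    have h2 := (mem_normalizer_iff.1 (k.le ha).1 b⁻¹).1 (B.inv_mem hb)
    have h3 := B.mul_mem hb h2
    have h4 : b * (a * b⁻¹ * a⁻¹) = b * a * b⁻¹ * a⁻¹ := by group
    rwa [h4] at h3
  rw [k.inf, mem_bot] at h1
  calc b * a = (b * a * b⁻¹ * a⁻¹) * (a * b) := by group
    _ = a * b := by rw [h1, one_mul]

/-- Frattini -/
theorem exists_n : ∃ n ∈ (S : Subgroup G), n ∉ B ∧ ∀ a ∈ A, n * a * n⁻¹ ∈ A := by
  have h1 : cj s A ≤ h.WW := by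
    rintro _ ⟨a, ha, rfl⟩
    exact h.WW_s (k.le ha)
  obtain ⟨b, hb, hbA⟩ := sz (h.two.to_le h.BS) h.B_WW h.WWn k.odd k.le h1 k.card (by rw [card_cj, k.card])
  refine ⟨b⁻¹ * s, (S : Subgroup G).mul_mem (inv_mem (h.BS hb)) h.sS, fun h2 => ?_, fun a ha => ?_⟩
  · have h3 := B.mul_mem hb h2
    rw [mul_inv_cancel_left] at h3
    exact h.s_notMem (h.BT h3)
  · have h2 : s * a * s⁻¹ ∈ cj b A := by rw [hbA]; exact ⟨a, ha, rfl⟩
    obtain ⟨a', ha', e⟩ := h2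
    have e' : b * a' * b⁻¹ = s * a * s⁻¹ := e
    have h3 : b⁻¹ * s * a * (b⁻¹ * s)⁻¹ = b⁻¹ * (s * a * s⁻¹) * b := by group
    rw [h3, ← e']
    have h4 : b⁻¹ * (b * a' * b⁻¹) * b = a' := by group
    rw [h4]; exact ha'

/-- no good element is centralised by `A` -/
theorem not_good {d : G} (hd : Gd D C₁ C₂ d) (hA : ∀ a ∈ A, a * d = d * a) : False := by
  have hW : ∀ w ∈ h.WW, w * d * w⁻¹ = d := by
    intro w hw
    obtain ⟨b, hb, a, ha, rfl⟩ := k.gen w hw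
    have h1 := h.centD hd.1 hb
    calc b * a * d * (b * a)⁻¹ = b * (a * d) * a⁻¹ * b⁻¹ := by group
      _ = b * (d * a) * a⁻¹ * b⁻¹ := by rw [hA a ha]
      _ = b * d * b⁻¹ := by group
      _ = d * b * b⁻¹ := by rw [h1]
      _ = d := by group
  have hall : ∀ e, Gd D C₁ C₂ e → e = d ∨ e = s * d * s⁻¹ := by
    intro e he
    obtain ⟨n, hn, rfl⟩ := h.go1 d e hd he
    rcases h.NB_or hn with h1 | h1
    · exact Or.inl (hW n ⟨hn, h1⟩)
    · right
      have h2 := hW (s⁻¹ * n) ⟨(normalizer (B : Set G)).mul_mem ((normalizer (B : Set G)).inv_mem h.sNB) hn, h1⟩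
      calc n * d * n⁻¹ = s * (s⁻¹ * n * d * (s⁻¹ * n)⁻¹) * s⁻¹ := by group
        _ = s * d * s⁻¹ := by rw [h2]
  obtain ⟨x, y, hx, hy, hxy⟩ := h.exists_three
  have hxx := h.sqD hx.1
  have h1 : x ≠ y := by
    rintro rfl
    apply h.good_ne hxy
    group
  have h2 : x ≠ x⁻¹ * y := by
    intro e
    apply h.good_ne hy
    calc y = x * (x⁻¹ * y) := by group
      _ = x * x := by rw [← e]
      _ = 1 := hxx
  have h3 : y ≠ x⁻¹ * y := by
    intro e
    apply h.good_ne hx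
    have h4 : x⁻¹ = 1 := mul_eq_right.1 e.symm
    exact inv_eq_one.1 h4
  rcases hall x hx with e1 | e1 <;> rcases hall y hy with e2 | e2 <;> rcases hall _ hxy with e3 | e3
  · exact h1 (e1.trans e2.symm)
  · exact h1 (e1.trans e2.symm)
  · exact h2 (e1.trans e3.symm)
  · exact h3 (e2.trans e3.symm)
  · exact h3 (e2.trans e3.symm)
  · exact h2 (e1.trans e3.symm)
  · exact h1 (e1.trans e2.symm)
  · exact h1 (e1.trans e2.symm)

theorem conj_n {n e : G} (hn : ∀ a ∈ A, n * a * n⁻¹ ∈ A) (he : ∀ a ∈ A, a * e = e * a) :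
    ∀ a ∈ A, a * (n * e * n⁻¹) = (n * e * n⁻¹) * a := by
  intro a ha
  have h1 : n⁻¹ * a * n ∈ A := inv_conj_mem hn a ha
  have h2 := he _ h1
  calc a * (n * e * n⁻¹) = n * (n⁻¹ * a * n * e) * n⁻¹ := by group
    _ = n * (e * (n⁻¹ * a * n)) * n⁻¹ := by rw [h2]
    _ = n * e * n⁻¹ * a := by group

theorem comm_mul {e f : G} (he : ∀ a ∈ A, a * e = e * a) (hf : ∀ a ∈ A, a * f = f * a) :
    ∀ a ∈ A, a * (e * f) = (e * f) * a := fun a ha =>
  ((show Commute a e from he a ha).mul_right (hf a ha)).eq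

/-- `C_D(A) = 1` -/
theorem cD {d : G} (hd : d ∈ D) (hA : ∀ a ∈ A, a * d = d * a) : d = 1 := by
  by_contra hd1
  obtain ⟨n, hnS, hnB, hn⟩ := k.exists_n
  have hsn := h.mem_T_of hnS hnB
  have h1 := k.conj_n hn hA
  have hnd : n * d * n⁻¹ ≠ 1 := by
    intro e
    apply hd1
    have h2 : d = n⁻¹ * (n * d * n⁻¹) * n := by group
    rw [h2, e]; group
  have hndD : n * d * n⁻¹ ∈ D := h.P_D hnS hd
  by_cases hc1 : d ∈ C₁
  · have h2 : n * d * n⁻¹ ∈ C₂ := h.swapC1 hsn hc1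
    refine k.not_good (d := d * (n * d * n⁻¹)) ⟨D.mul_mem hd hndD, fun h3 => ?_, fun h3 => ?_⟩
      (k.comm_mul hA h1)
    · apply hnd
      have h4 : n * d * n⁻¹ ∈ C₁ ⊓ C₂ := by
        refine ⟨?_, h2⟩
        have h5 := C₁.mul_mem (C₁.inv_mem hc1) h3
        rwa [inv_mul_cancel_left] at h5
      rwa [h.C12, mem_bot] at h4
    · apply hd1
      have h4 : d ∈ C₁ ⊓ C₂ := by
        refine ⟨hc1, ?_⟩
        have h5 := C₂.mul_mem h3 (C₂.inv_mem h2)
        rwa [mul_inv_cancel_right] at h5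
      rwa [h.C12, mem_bot] at h4
  · by_cases hc2 : d ∈ C₂
    · have h2 : n * d * n⁻¹ ∈ C₁ := h.swapC2 hsn hc2
      refine k.not_good (d := d * (n * d * n⁻¹)) ⟨D.mul_mem hd hndD, fun h3 => ?_, fun h3 => ?_⟩
        (k.comm_mul hA h1)
      · apply hd1
        have h4 : d ∈ C₁ ⊓ C₂ := by
          refine ⟨?_, hc2⟩
          have h5 := C₁.mul_mem h3 (C₁.inv_mem h2)
          rwa [mul_inv_cancel_right] at h5
        rwa [h.C12, mem_bot] at h4
      · apply hnd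
        have h4 : n * d * n⁻¹ ∈ C₁ ⊓ C₂ := by
          refine ⟨h2, ?_⟩
          have h5 := C₂.mul_mem (C₂.inv_mem hc2) h3
          rwa [inv_mul_cancel_left] at h5
        rwa [h.C12, mem_bot] at h4
    · exact k.not_good ⟨hd, hc1, hc2⟩ hA

theorem comm_comm {e f : G} (he : ∀ a ∈ A, a * e = e * a) (hf : ∀ a ∈ A, a * f = f * a) :
    ∀ a ∈ A, a * (e * f * e⁻¹ * f⁻¹) = (e * f * e⁻¹ * f⁻¹) * a := fun a ha => by
  have h1 : Commute a e := he a ha
  have h2 : Commute a f := hf a ha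
  exact (((h1.mul_right h2).mul_right h1.inv_right).mul_right h2.inv_right).eq

/-- `C_{Q₁}(A) = 1` -/
theorem cQ1 {x : G} (hx : x ∈ Q₁) (hA : ∀ a ∈ A, a * x = x * a) : x = 1 := by
  obtain ⟨n, hnS, hnB, hn⟩ := k.exists_n
  have hsn := h.mem_T_of hnS hnB
  have h1 := k.conj_n hn hA
  by_cases hxD : x ∈ D
  · exact k.cD hxD hA
  · exfalso
    have h2 : n * x * n⁻¹ ∈ Q₂ := h.swap1 hsn hx
    have h3 : n * x * n⁻¹ ∉ D := by
      intro h3
      apply hxD
      have h4 := inv_conj_mem (g := n) (X := D) (fun y hy => h.P_D hnS hy) _ h3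
      have h5 : n⁻¹ * (n * x * n⁻¹) * n = x := by group
      rwa [h5] at h4
    exact k.not_good (h.good x hx hxD _ h2 h3) (k.comm_comm hA h1)

theorem cQ2 {x : G} (hx : x ∈ Q₂) (hA : ∀ a ∈ A, a * x = x * a) : x = 1 := by
  obtain ⟨n, hnS, hnB, hn⟩ := k.exists_n
  have hsn := h.mem_T_of hnS hnB
  have h1 := k.cQ1 (h.swap2 hsn hx) (k.conj_n hn hA)
  have h2 : x = n⁻¹ * (n * x * n⁻¹) * n := by group
  rw [h2, h1]; group

/-- `C_B(A) = 1` -/
theorem cB {x : G} (hx : x ∈ B) (hA : ∀ a ∈ A, a * x = x * a) : x = 1 := by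
  obtain ⟨u, hu, v, hv, rfl⟩ := h.prod x hx
  have hAQ1 : ∀ a ∈ A, ∀ y ∈ Q₁, a * y * a⁻¹ ∈ Q₁ := fun a ha y hy =>
    (mem_normalizer_iff.1 (k.le ha).2 y).1 hy
  have hAQ2 : ∀ a ∈ A, ∀ y ∈ Q₂, a * y * a⁻¹ ∈ Q₂ := fun a ha y hy =>
    (mem_normalizer_iff.1 (h.WW_Q2 (k.le ha)) y).1 hy
  have hAD : A ≤ normalizer (D : Set G) := fun a ha => mem_normalizer_of fun d hd =>
    (h.memD _).2 ⟨hAQ1 a ha d (h.D1 hd), hAQ2 a ha d (h.D2 hd)⟩
  -- `u` is fixed modulo `D`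
  have hu1 : ∀ a ∈ A, u⁻¹ * (a * u * a⁻¹) ∈ D := by
    intro a ha
    refine (h.memD _).2 ⟨Q₁.mul_mem (Q₁.inv_mem hu) (hAQ1 a ha u hu), ?_⟩
    have h1 : u * v = (a * u * a⁻¹) * (a * v * a⁻¹) := by
      calc u * v = (u * v) * a * a⁻¹ := by group
        _ = a * (u * v) * a⁻¹ := by rw [hA a ha]
        _ = _ := by group
    have h2 : u⁻¹ * (a * u * a⁻¹) = v * (a * v * a⁻¹)⁻¹ := by
      rw [inv_mul_eq_iff_eq_mul, ← mul_assoc, h1]; group
    rw [h2]
    exact Q₂.mul_mem hv (Q₂.inv_mem (hAQ2 a ha v hv))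
  have hD2 : IsPGroup 2 D := (h.two.to_le h.BS).to_le h.DB
  have hAD1 : A ⊓ D = ⊥ := by
    rw [eq_bot_iff, ← k.inf]
    exact inf_le_inf_left _ h.DB
  have hidx : D.relIndex (D ⊔ A) = Nat.card A := by
    rw [relIndex_sup_of hAD, ← Subgroup.inf_relIndex_right, inf_comm, hAD1, Subgroup.relIndex_bot_left]
  have hle : cj u A ≤ D ⊔ A := by
    rintro _ ⟨a, ha, rfl⟩
    have h1 := hu1 a ha
    have h2 : u * a * u⁻¹ = (u * (u⁻¹ * (a * u * a⁻¹))⁻¹ * u⁻¹) * a := by group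
    show u * a * u⁻¹ ∈ D ⊔ A
    rw [h2]
    refine mul_mem (mem_sup_left ?_) (mem_sup_right ha)
    have h3 := D.inv_mem h1
    have h4 : u * (u⁻¹ * (a * u * a⁻¹))⁻¹ * u⁻¹ = (u⁻¹ * (a * u * a⁻¹))⁻¹ := by
      rw [h.c1 u hu _ (h.D1 h3)]; group
    rw [h4]; exact h3
  obtain ⟨d, hd, hdA⟩ := sz hD2 (le_sup_left : D ≤ D ⊔ A) (sup_le le_normalizer hAD) k.odd le_sup_right hle
    hidx.symm (by rw [card_cj, hidx])
  -- `d⁻¹ u` normalises `A`
  have h1 : ∀ a ∈ A, d⁻¹ * u * a * (d⁻¹ * u)⁻¹ ∈ A := by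
    intro a ha
    have h2 : u * a * u⁻¹ ∈ cj d A := by rw [hdA]; exact ⟨a, ha, rfl⟩
    obtain ⟨a', ha', e⟩ := h2
    have e' : d * a' * d⁻¹ = u * a * u⁻¹ := e
    have h3 : d⁻¹ * u * a * (d⁻¹ * u)⁻¹ = d⁻¹ * (u * a * u⁻¹) * d := by group
    rw [h3, ← e']
    have h4 : d⁻¹ * (d * a' * d⁻¹) * d = a' := by group
    rw [h4]; exact ha'
  have hduQ : d⁻¹ * u ∈ Q₁ := Q₁.mul_mem (Q₁.inv_mem (h.D1 hd)) hu
  have h2 : d⁻¹ * u = 1 := k.cQ1 hduQ fun a ha => (k.comm (h.Q1B hduQ) (h1 a ha) ha).symm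
  have h3 : u = d := by rw [inv_mul_eq_one] at h2; exact h2.symm
  exact k.cQ2 (Q₂.mul_mem (h.D2 (h3 ▸ hd)) hv) hA

end Cm

/-- **(A)** there is an involution in `S ∖ B`. -/
theorem exists_inv : ∃ x ∈ (S : Subgroup G), x ∉ B ∧ x * x = 1 := by
  obtain ⟨A, k⟩ := h.exists_Cm
  obtain ⟨n, hnS, hnB, hn⟩ := k.exists_n
  have hnn : n * n ∈ B := by
    have h1 := h.coset (x := n⁻¹) (inv_mem hnS) (fun h2 => hnB (by have := B.inv_mem h2; rwa [inv_inv] at this)) hnS hnB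
    rwa [inv_inv] at h1
  refine ⟨n, hnS, hnB, k.cB hnn fun a ha => (k.comm hnn ?_ ha).symm⟩
  have h1 := hn _ (hn a ha)
  have h2 : n * (n * a * n⁻¹) * n⁻¹ = n * n * a * (n * n)⁻¹ := by group
  rwa [h2] at h1

/-- **`G` has a nontrivial normal 2-subgroup.** -/
theorem exists_normal : ∃ R : Subgroup G, IsPGroup 2 R ∧ R ≠ ⊥ ∧ normalizer (R : Set G) = ⊤ := by
  obtain ⟨x, hxS, hxB, hxx⟩ := h.exists_inv
  obtain ⟨t, y, ht, -, -⟩ := h.exists_three
  set Z : Subgroup G := normalClosure {t} with hZ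
  have hZn : Z ≤ normalizer (B : Set G) := by
    rw [hZ, normalClosure, closure_le]
    intro y hy
    obtain ⟨a, ha, hay⟩ := Group.mem_conjugatesOfSet_iff.1 hy
    rw [Set.mem_singleton_iff] at ha
    subst ha
    obtain ⟨g, rfl⟩ := isConj_iff.1 hay
    exact h.conj_mem hxS hxB hxx ht g
  have htZ : t ∈ Z := subset_normalClosure rfl
  have hle : Z ⊓ B ≤ o2 Z := by
    refine ChoiceSit.le_o2 ((h.two.to_le h.BS).to_le inf_le_right) inf_le_left ?_
    intro z hz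
    refine mem_normalizer_of fun y hy => ⟨Z.mul_mem (Z.mul_mem hz hy.1) (Z.inv_mem hz), ?_⟩
    exact (mem_normalizer_iff.1 (hZn hz) y).1 hy.2
  refine ⟨o2 Z, ChoiceSit.isPGroup_o2 _, fun hb => ?_, ?_⟩
  · have h1 : t ∈ o2 Z := hle ⟨htZ, h.DB ht.1⟩
    rw [hb, mem_bot] at h1
    exact h.good_ne ht h1
  · have h1 : normalizer (Z : Set G) = ⊤ := normalizer_eq_top_iff.2 inferInstance
    rw [eq_top_iff, ← h1]
    exact normalizer_le_of_cj (F := fun K => o2 K) pCore_cj Z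

end TEnd

end Cfsg.Agent.H282.PU
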